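import Cfsg.Agent.Lib.ClassSizes3.Basic
import Cfsg.Agent.Lib.CharTheory.PermChar
import Cfsg.Agent.Lib.CharTheory.Burnside
import Cfsg.Agent.Lib.CharTheory.Ito
import Cfsg.Agent.Lib.CharTheory.Linear
import Cfsg.Agent.Lib.Frobenius.Exceptional
import Cfsg.Agent.Lib.Frobenius.Induce
import Cfsg.Agent.Lib.Coherence.Virtual

/-!
# A permutation character with an abelian regular subgroup that is a centraliser subgroup

`K` is abelian, the centraliser of each of its non-identity elements, of order prime to and equal to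
the index of `C(x)`.  Then the permutation character on the cosets of `C(x)` has value one at `x`;
and either the action is doubly transitive, or every element with exactly one fixed point that is
not conjugate into `K` is a zero of a character of degree `|N(K) : K|`.
-/

set_option autoImplicit false
set_option linter.style.haveILetI false

open scoped ComplexConjugate
open Cfsg

namespace CfsgLib.CoreFree.RankThree

open Subgroup MulAction CfsgLib.ClassSizes3

universe u

/-- The configuration. -/
structure Torus {G : Type u} [Group G] (x : G) (K : Subgroup G) : Prop where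
  ab : ∀ v ∈ K, ∀ w ∈ K, v * w = w * v
  cent : ∀ v ∈ K, v ≠ 1 → C v = K
  card : Nat.card K = (C x).index
  coprime : (Nat.card K).Coprime (Nat.card (C x))
  one_lt : 1 < Nat.card K

/-- The number of fixed cosets. -/
noncomputable def fixes {G : Type u} [Group G] (x g : G) : ℕ := Nat.card (fixedBy (G ⧸ C x) g)

section General

variable {G : Type u} [Group G] [Finite G] {x : G}

theorem mem_fixedBy_mk {g h : G} :
    (QuotientGroup.mk g : G ⧸ C x) ∈ fixedBy (G ⧸ C x) h ↔ Commute h (g * x * g⁻¹) := by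
  rw [mem_fixedBy, Quotient.smul_mk, smul_eq_mul, QuotientGroup.eq, mem_C]
  constructor
  · intro e
    show h * (g * x * g⁻¹) = g * x * g⁻¹ * h
    have e' : x * ((h * g)⁻¹ * g) = (h * g)⁻¹ * g * x := e.symm
    calc h * (g * x * g⁻¹) = (h * g) * (x * ((h * g)⁻¹ * g)) * g⁻¹ * h := by group
      _ = (h * g) * ((h * g)⁻¹ * g * x) * g⁻¹ * h := by rw [e']
      _ = g * x * g⁻¹ * h := by group
  · intro e
    calc (h * g)⁻¹ * g * x = g⁻¹ * h⁻¹ * (g * x * g⁻¹ * h) * h⁻¹ * g := by group
      _ = g⁻¹ * h⁻¹ * (h * (g * x * g⁻¹)) * h⁻¹ * g := by rw [e.eq]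
      _ = x * ((h * g)⁻¹ * g) := by group

/-- If `g` fixes a single coset, the conjugate of `x` that it commutes with is unique. -/
theorem unique_of_fixes_one {h g g' : G} (h1 : fixes x h = 1) (e : Commute h (g * x * g⁻¹))
    (e' : Commute h (g' * x * g'⁻¹)) : g * x * g⁻¹ = g' * x * g'⁻¹ := by
  obtain ⟨⟨q, hq⟩⟩ := (Nat.card_eq_one_iff_unique.1 h1).2
  haveI := (Nat.card_eq_one_iff_unique.1 h1).1
  have a := Subsingleton.elim (⟨_, mem_fixedBy_mk.2 e⟩ : fixedBy (G ⧸ C x) h) ⟨_, mem_fixedBy_mk.2 e'⟩
  have b := mem_C.1 (QuotientGroup.eq.1 (congrArg Subtype.val a))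
  calc g * x * g⁻¹ = g * (x * (g⁻¹ * g')) * g'⁻¹ := by group
    _ = g * (g⁻¹ * g' * x) * g'⁻¹ := by rw [b]
    _ = g' * x * g'⁻¹ := by group

end General

variable {G : Type u} [Group G] [Fintype G] {x : G} {K : Subgroup G}

open Classical in
/-- The TI property of `K`. -/
theorem Torus.mem_normalizer (h : Torus x K) {v g : G} (hv : v ∈ K) (hv1 : v ≠ 1)
    (hg : g⁻¹ * v * g ∈ K) : g ∈ normalizer (K : Set G) := by
  have e := h.cent _ hg (fun e => hv1 (by
    have := congrArg (fun z => g * z * g⁻¹) e; simpa [mul_assoc] using this))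
  rw [Subgroup.mem_normalizer_iff]
  intro u
  rw [← h.cent v hv hv1]
  nth_rewrite 1 [h.cent v hv hv1, ← e]
  rw [show v = g * (g⁻¹ * v * g) * g⁻¹ by group, mem_C, mem_C]
  constructor
  · intro d
    calc g * u * g⁻¹ * (g * (g⁻¹ * v * g) * g⁻¹) = g * (u * (g⁻¹ * v * g)) * g⁻¹ := by group
      _ = g * (g⁻¹ * v * g * u) * g⁻¹ := by
          rw [show g⁻¹ * (g * (g⁻¹ * v * g) * g⁻¹) * g = g⁻¹ * v * g by group] at d; rw [d]
      _ = _ := by group
  · intro d
    calc u * (g⁻¹ * (g * (g⁻¹ * v * g) * g⁻¹) * g)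
        = g⁻¹ * ((g * u * g⁻¹) * (g * (g⁻¹ * v * g) * g⁻¹)) * g := by group
      _ = g⁻¹ * ((g * (g⁻¹ * v * g) * g⁻¹) * (g * u * g⁻¹)) * g := by rw [d]
      _ = _ := by group

section Chars

variable [Fintype K] (h : Torus x K)

open Classical in
/-- Conjugating a character of `K` by an element of the normaliser. -/
noncomputable def twist (l : K → ℂ) (n : normalizer (K : Set G)) : K → ℂ :=
  fun v => l ⟨(n : G)⁻¹ * v * (n : G), by
    have := (Subgroup.mem_normalizer_iff.1 (inv_mem n.2) (v : G)).1 v.2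
    simpa using this⟩

include h in
theorem Torus.isIrr_twist {l : K → ℂ} (hl : IsIrrCharacter K l) (n : normalizer (K : Set G)) :
    IsIrrCharacter K (twist l n) := by
  obtain ⟨μ, rfl⟩ := CfsgLib.CharTheory.exists_hom_of_degree_one hl
    (CfsgLib.CharTheory.apply_one_eq_one_of_comm (fun a b => Subtype.ext (h.ab a a.2 b b.2)) hl)
  let f : K →* K :=
    { toFun := fun v => ⟨(n : G)⁻¹ * v * (n : G), by
        have := (Subgroup.mem_normalizer_iff.1 (inv_mem n.2) (v : G)).1 v.2
        simpa using this⟩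
      map_one' := Subtype.ext (by simp)
      map_mul' := fun u v => Subtype.ext (by push_cast; group) }
  exact CfsgLib.CharTheory.isIrrCharacter_linear (μ.comp f)

include h in
/-- Only `K` fixes a non-trivial character of `K`. -/
theorem Torus.eq_one_of_twist {l : K → ℂ} (hl : IsIrrCharacter K l)
    {n : normalizer (K : Set G)} (hn : (n : G) ∉ K) (he : twist l n = l) : l = fun _ => 1 := by
  obtain ⟨μ, rfl⟩ := CfsgLib.CharTheory.exists_hom_of_degree_one hl
    (CfsgLib.CharTheory.apply_one_eq_one_of_comm (fun a b => Subtype.ext (h.ab a a.2 b b.2)) hl)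
  let f : K → K := fun v => ⟨(n : G)⁻¹ * v * (n : G) * (v : G)⁻¹, mul_mem (by
        have := (Subgroup.mem_normalizer_iff.1 (inv_mem n.2) (v : G)).1 v.2
        simpa using this) (inv_mem v.2)⟩
  have hinj : Function.Injective f := by
    intro v w e
    have e' : (n : G)⁻¹ * v * (n : G) * (v : G)⁻¹ = (n : G)⁻¹ * w * (n : G) * (w : G)⁻¹ :=
      congrArg Subtype.val e
    have e2 : (n : G)⁻¹ * ((v : G) * (w : G)⁻¹) * (n : G) = (v : G) * (w : G)⁻¹ := by
      have hA : (n : G)⁻¹ * v * n ∈ K := by
        have := (Subgroup.mem_normalizer_iff.1 (inv_mem n.2) (v : G)).1 v.2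
        simpa using this
      have hB : (n : G)⁻¹ * w * n ∈ K := by
        have := (Subgroup.mem_normalizer_iff.1 (inv_mem n.2) (w : G)).1 w.2
        simpa using this
      calc (n : G)⁻¹ * ((v : G) * (w : G)⁻¹) * n
          = ((n : G)⁻¹ * v * n) * ((n : G)⁻¹ * w * n)⁻¹ := by group
        _ = ((n : G)⁻¹ * v * n * (v : G)⁻¹) * (v : G) * ((n : G)⁻¹ * w * n)⁻¹ := by group
        _ = ((n : G)⁻¹ * w * n * (w : G)⁻¹) * (v : G) * ((n : G)⁻¹ * w * n)⁻¹ := by rw [e']
        _ = ((n : G)⁻¹ * w * n) * ((w : G)⁻¹ * (v : G)) * ((n : G)⁻¹ * w * n)⁻¹ := by group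
        _ = (w : G)⁻¹ * (v : G) := by
            rw [h.ab _ hB _ (mul_mem (inv_mem w.2) v.2), mul_inv_cancel_right]
        _ = (v : G) * (w : G)⁻¹ := h.ab _ (inv_mem w.2) _ v.2
    by_contra hne
    refine hn ?_
    have hm : (n : G) ∈ C ((v : G) * (w : G)⁻¹) := by
      rw [mem_C]
      calc (n : G) * ((v : G) * (w : G)⁻¹)
          = (n : G) * ((n : G)⁻¹ * ((v : G) * (w : G)⁻¹) * n) := by rw [e2]
        _ = (v : G) * (w : G)⁻¹ * n := by group
    rwa [h.cent _ (mul_mem v.2 (inv_mem w.2))
      (fun e1 => hne (Subtype.ext (mul_inv_eq_one.1 e1)))] at hm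
  funext v
  obtain ⟨w, hw⟩ := Finite.surjective_of_injective hinj v
  have e := congrFun he w
  simp only [twist] at e
  have e' := Units.ext e
  have : μ v = 1 := by
    rw [← hw, show f w = ⟨(n : G)⁻¹ * w * (n : G), by
        have := (Subgroup.mem_normalizer_iff.1 (inv_mem n.2) (w : G)).1 w.2
        simpa using this⟩ * w⁻¹ from Subtype.ext rfl,
      map_mul, e', map_inv, mul_inv_cancel]
  simp [this]

include h in
theorem Torus.twist_eq_self {l : K → ℂ} (n : normalizer (K : Set G)) (hn : (n : G) ∈ K) :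
    twist l n = l := by
  funext v
  refine congrArg l (Subtype.ext ?_)
  show (n : G)⁻¹ * v * n = v
  rw [mul_assoc, h.ab _ v.2 _ hn, inv_mul_cancel_left]

open Classical in
include h in
/-- The value on `K` of a function induced from `K`. -/
theorem Torus.indFun_apply (f : K → ℂ) (h1 : f 1 = 0) (v : K) :
    indFun K f v = (Nat.card K : ℂ)⁻¹ * ∑ n : normalizer (K : Set G), twist f n v := by
  classical
  by_cases hv : (v : G) = 1
  · obtain rfl : v = 1 := Subtype.ext hv
    rw [Subgroup.coe_one, CfsgLib.Frobenius.indFun_one, h1, mul_zero, eq_comm]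
    refine mul_eq_zero_of_right _ (Finset.sum_eq_zero fun n _ => ?_)
    show f _ = 0
    refine Eq.trans (congrArg f (Subtype.ext ?_)) h1
    show (n : G)⁻¹ * ((1 : K) : G) * (n : G) = ((1 : K) : G)
    rw [Subgroup.coe_one]; group
  · rw [indFun]
    congr 1
    rw [← Finset.sum_subset (Finset.subset_univ
      (Finset.univ.filter fun g : G => g ∈ normalizer (K : Set G))) (fun g _ hg =>
        CfsgLib.Frobenius.extendByZero_of_not_mem K f fun hm =>
          hg (Finset.mem_filter.2 ⟨Finset.mem_univ _, h.mem_normalizer v.2 hv hm⟩))]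
    rw [Finset.sum_subtype (p := fun g => g ∈ normalizer (K : Set G)) _ (fun g => by simp)]
    refine Finset.sum_congr rfl fun n _ => ?_
    exact CfsgLib.Frobenius.extendByZero_of_mem K f _

open Classical in
include h in
/-- Induction of a difference of non-conjugate non-trivial characters has norm two. -/
theorem Torus.norm_two {l m : IrrCharacter K} (hl : (l : K → ℂ) ≠ fun _ => 1)
    (hm : (m : K → ℂ) ≠ fun _ => 1) (hlm : ∀ n, twist (l : K → ℂ) n ≠ (m : K → ℂ)) :
    classInner (indFun K ((l : K → ℂ) - m)) (indFun K ((l : K → ℂ) - m)) = 2 := by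
  classical
  have hone : ∀ q : IrrCharacter K, (q : K → ℂ) 1 = 1 := fun q =>
    CfsgLib.CharTheory.apply_one_eq_one_of_comm (fun a b => Subtype.ext (h.ab a a.2 b b.2)) q.2
  have h0 : ((l : K → ℂ) - m) 1 = 0 := by simp [hone]
  have hml : ∀ n, twist (m : K → ℂ) n ≠ (l : K → ℂ) := by
    intro n e
    refine hlm n⁻¹ ?_
    rw [← e]
    funext v
    refine congrArg (m : K → ℂ) (Subtype.ext ?_)
    push_cast
    group
  rw [CfsgLib.Frobenius.classInner_indFun K _ _ (CfsgLib.Frobenius.indFun_isClassFunction K _)]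
  rw [show (fun v : K => indFun K ((l : K → ℂ) - m) v) =
    (Nat.card K : ℂ)⁻¹ • ∑ n : normalizer (K : Set G),
      (twist (l : K → ℂ) n - twist (m : K → ℂ) n) from funext fun v => by
        rw [h.indFun_apply _ h0 v, Pi.smul_apply, Finset.sum_apply, smul_eq_mul]; rfl]
  rw [CfsgLib.CharTheory.classInner_smul_right, CfsgLib.CharTheory.classInner_sum_right]
  have hterm : ∀ n : normalizer (K : Set G),
      classInner ((l : K → ℂ) - (m : K → ℂ)) (twist (l : K → ℂ) n - twist (m : K → ℂ) n) =
        if (n : G) ∈ K then (2 : ℂ) else 0 := by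
    intro n
    rw [CfsgLib.CharTheory.classInner_sub_left, CfsgLib.CharTheory.classInner_sub_right,
      CfsgLib.CharTheory.classInner_sub_right,
      CfsgLib.CharTheory.classInner_irr l.2 (h.isIrr_twist l.2 n),
      CfsgLib.CharTheory.classInner_irr l.2 (h.isIrr_twist m.2 n),
      CfsgLib.CharTheory.classInner_irr m.2 (h.isIrr_twist l.2 n),
      CfsgLib.CharTheory.classInner_irr m.2 (h.isIrr_twist m.2 n),
      if_neg (Ne.symm (hml n)), if_neg (Ne.symm (hlm n))]
    by_cases hn : (n : G) ∈ K
    · rw [if_pos hn, if_pos (h.twist_eq_self n hn).symm, if_pos (h.twist_eq_self n hn).symm]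
      norm_num
    · rw [if_neg hn, if_neg fun e => hl (h.eq_one_of_twist l.2 hn e.symm),
        if_neg fun e => hm (h.eq_one_of_twist m.2 hn e.symm)]
      simp
  rw [Finset.sum_congr rfl fun n _ => hterm n, Finset.sum_ite, Finset.sum_const_zero, add_zero,
    Finset.sum_const, nsmul_eq_mul]
  have hcount : (Finset.univ.filter fun n : normalizer (K : Set G) => (n : G) ∈ K).card =
      Nat.card K := by
    rw [← Fintype.card_subtype, ← Nat.card_eq_fintype_card]
    exact Nat.card_congr (Equiv.subtypeSubtypeEquivSubtype fun {g} hg => le_normalizer hg)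
  rw [hcount, map_inv₀, Complex.conj_natCast, ← mul_assoc,
    inv_mul_cancel₀ (Nat.cast_ne_zero.2 (Nat.card_pos (α := K)).ne'), one_mul]

end Chars

/-- An irreducible character of degree prime to a class size vanishes on the class. -/
theorem vanish_aux {G : Type u} [Group G] [Fintype G] [IsSimpleGroup G] (hG : center G = ⊥)
    {g : G} (hg : g ≠ 1) {χ : G → ℂ} (hχ : IsIrrCharacter G χ) (hne : χ ≠ fun _ => 1) {d : ℕ}
    (hd : χ 1 = d) (hco : d.Coprime (C g).index) : χ g = 0 := by
  obtain ⟨n, ρ, hρ, rfl⟩ := hχ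
  have hdn : Module.finrank ℂ (Fin n → ℂ) = d := by exact_mod_cast ρ.char_one.symm.trans hd
  rcases CfsgLib.CharTheory.character_eq_zero_or_norm_of_coprime ρ g (hdn ▸ hco) with h0 | h1
  · exact h0
  exfalso
  obtain ⟨ω, hω⟩ := (CfsgLib.CharTheory.norm_character_eq_iff ρ g).1 h1
  rcases (inferInstance : (ρ.ker).Normal).eq_bot_or_eq_top with hk | hk
  · refine hg ?_
    have hc : g ∈ center G := mem_center_iff.2 fun y => by
      have hmem : y * g * (g * y)⁻¹ ∈ ρ.ker := by
        have he : ρ (y * g) = ρ (g * y) := by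
          rw [map_mul, map_mul, hω, mul_smul_comm, smul_mul_assoc]; rfl
        rw [MonoidHom.mem_ker, map_mul, he, ← map_mul, mul_inv_cancel, map_one]
      rwa [hk, mem_bot, mul_inv_eq_one] at hmem
    rwa [hG, mem_bot] at hc
  · have hconst : ρ.character = fun _ => (Module.finrank ℂ (Fin n → ℂ) : ℂ) := funext fun y => by
      have : ρ y = 1 := MonoidHom.mem_ker.1 (hk ▸ mem_top y)
      rw [Representation.character, this, LinearMap.trace_one]
    refine hne ?_
    by_contra hne'
    have h0 := CfsgLib.CharTheory.classInner_eq_zero_of_ne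
      (CfsgLib.CharTheory.isIrrCharacter_character ρ) CfsgLib.CharTheory.isIrrCharacter_one hne'
    rw [hconst] at h0
    have hpos := CfsgLib.CharTheory.finrank_pos_of_isIrreducible ρ
    simp [classInner] at h0 hpos
    omega

section Main

variable [IsSimpleGroup G]

/-- The main consequence. -/
theorem Torus.main (h : Torus x K) (hG : center G = ⊥) (hx : x ≠ 1) :
    (∀ g : G, g ≠ 1 → (C g).index = (C x).index → fixes x g = 1) ∧
      (IsMultiplyPretransitive G (G ⧸ C x) 2 ∨
        ∃ χ : G → ℂ, IsIrrCharacter G χ ∧ χ 1 = (K.relIndex (normalizer (K : Set G)) : ℂ) ∧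
          ∀ t : G, fixes x t = 1 → (∀ g : G, g⁻¹ * t * g ∉ K) → χ t = 0) := by
  classical
  haveI : Fintype K := Fintype.ofFinite K
  haveI : Fintype (IrrCharacter G) := Fintype.ofFinite _
  haveI : Fintype (IrrCharacter K) := Fintype.ofFinite _
  haveI hpre : IsPretransitive G (G ⧸ C x) := inferInstance
  let π : G → ℂ := fun g => (fixes x g : ℂ)
  have hπ : IsCharacter G π := CfsgLib.CharTheory.isCharacter_card_fixedBy (G ⧸ C x)
  obtain ⟨m, hm⟩ := CfsgLib.CharTheory.IsCharacter.exists_sum hπ
  have hinner : ∀ χ : IrrCharacter G, classInner π (χ : G → ℂ) = m χ := fun χ => by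
    rw [hm]; exact CfsgLib.CharTheory.classInner_sum_irr _ χ
  have hone : ∀ q : IrrCharacter K, (q : K → ℂ) 1 = 1 := fun q =>
    CfsgLib.CharTheory.apply_one_eq_one_of_comm (fun a b => Subtype.ext (h.ab a a.2 b b.2)) q.2
  -- multiplicities on `K`
  have hres : ∀ χ : IrrCharacter G, IsCharacter K (fun v : K => (χ : G → ℂ) v) := fun χ =>
    CfsgLib.Coherence.isCharacter_comp (CfsgLib.CharTheory.IsIrrCharacter.isCharacter χ.2) K.subtype
  choose r hr using fun (χ : IrrCharacter G) (l : IrrCharacter K) =>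
    CfsgLib.CharTheory.IsCharacter.exists_classInner_eq_nat (hres χ) l
  have hdeg : ∀ χ : IrrCharacter G, (χ : G → ℂ) 1 = ∑ l : IrrCharacter K, (r χ l : ℂ) := by
    intro χ
    have e := congrFun (CfsgLib.CharTheory.eq_sum_classInner (G := K)
      (CfsgLib.CharTheory.IsCharacter.isClassFunction (hres χ))) 1
    rw [Subgroup.coe_one, Finset.sum_apply] at e
    rw [e]
    refine Finset.sum_congr rfl fun l _ => ?_
    rw [Pi.smul_apply, smul_eq_mul, hone, mul_one, hr]
  have hfree : ∀ v : K, v ≠ 1 → π (v : G) = 0 := by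
    intro v hv
    show ((fixes x (v : G) : ℕ) : ℂ) = 0
    rw [Nat.cast_eq_zero]
    refine @Nat.card_of_isEmpty _ ⟨?_⟩
    rintro ⟨q, hq⟩
    obtain ⟨g, rfl⟩ := QuotientGroup.mk_surjective q
    have hc : g * x * g⁻¹ ∈ K := by
      rw [← h.cent v v.2 (fun e => hv (Subtype.ext e)), mem_C]
      exact (mem_fixedBy_mk.1 hq).eq.symm
    have hd : orderOf x ∣ Nat.card K := by
      have := orderOf_dvd_natCard (⟨_, hc⟩ : K)
      rwa [orderOf_mk, show g * x * g⁻¹ = MulAut.conj g x from rfl, MulEquiv.orderOf_eq] at this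
    have hd' : orderOf x ∣ Nat.card (C x) := by
      have := orderOf_dvd_natCard (⟨x, self_mem_C x⟩ : C x)
      rwa [orderOf_mk] at this
    exact hx (orderOf_eq_one_iff.1 (Nat.eq_one_of_dvd_one (h.coprime ▸ Nat.dvd_gcd hd hd')))
  have hπone : π 1 = (Nat.card K : ℂ) := by
    show ((fixes x 1 : ℕ) : ℂ) = _
    rw [fixes, h.card, index_eq_card]
    exact_mod_cast Nat.card_congr
      ((Equiv.setCongr (Set.ext fun q => by simp)).trans (Equiv.Set.univ (G ⧸ C x)))
  have hsum : ∀ l : IrrCharacter K, ∑ χ, m χ * r χ l = 1 := by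
    intro l
    have e : classInner (fun v : K => π v) (l : K → ℂ) = 1 := by
      rw [classInner, Finset.sum_eq_single 1 (fun v _ hv => by rw [hfree v hv, zero_mul])
        (fun he => absurd (Finset.mem_univ _) he), Subgroup.coe_one, hπone, hone, map_one,
        mul_one, inv_mul_cancel₀ (Nat.cast_ne_zero.2 (Nat.card_pos (α := K)).ne')]
    rw [show (fun v : K => π v) = ∑ χ : IrrCharacter G, (m χ : ℂ) • fun v : K => (χ : G → ℂ) v from
      funext fun v => by rw [hm]; simp, CfsgLib.CharTheory.classInner_sum_left] at e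
    simp only [CfsgLib.CharTheory.classInner_smul_left, hr] at e
    exact_mod_cast e
  let one := CfsgLib.CharTheory.trivIrr G
  let oneK := CfsgLib.CharTheory.trivIrr K
  have hm1 : m one = 1 := by
    have e := CfsgLib.CharTheory.classInner_card_fixedBy_one (G := G) (G ⧸ C x)
    have hq : Nat.card (orbitRel.Quotient G (G ⧸ C x)) = 1 := by
      rw [Nat.card_eq_one_iff_unique]
      exact ⟨⟨fun p q => Quotient.inductionOn₂' p q fun a b => Quotient.sound'
        (orbitRel_apply.2 (exists_smul_eq G b a))⟩, ⟨Quotient.mk'' (QuotientGroup.mk 1)⟩⟩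
    rw [hq, Nat.cast_one] at e
    have := (hinner one).symm.trans e
    exact_mod_cast this
  have hr1 : r one oneK = 1 := by
    have := hr one oneK
    rw [show (fun v : K => (one : G → ℂ) v) = (oneK : K → ℂ) from rfl,
      CfsgLib.CharTheory.classInner_self_of_isIrr oneK.2] at this
    exact_mod_cast this.symm
  have huniq : ∀ (l : IrrCharacter K) (χ χ' : IrrCharacter G), 0 < m χ * r χ l →
      0 < m χ' * r χ' l → χ = χ' := by
    intro l χ χ' a b
    by_contra hne
    have := Finset.sum_le_sum_of_subset (f := fun χ => m χ * r χ l)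
      (Finset.subset_univ {χ, χ'})
    rw [hsum, Finset.sum_pair hne] at this
    omega
  have hexist : ∀ l : IrrCharacter K, ∃ χ, 0 < m χ * r χ l := fun l => by
    by_contra! hall
    have := hsum l
    rw [Finset.sum_eq_zero fun χ _ => Nat.le_zero.1 (hall χ)] at this
    exact zero_ne_one this
  have hle1 : ∀ χ l, m χ * r χ l ≤ 1 := fun χ l => (hsum l) ▸
    Finset.single_le_sum (f := fun χ => m χ * r χ l) (fun _ _ => Nat.zero_le _) (Finset.mem_univ χ)
  -- constituents other than the trivial character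
  have hcon : ∀ χ : IrrCharacter G, χ ≠ one → 0 < m χ →
      m χ = 1 ∧ r χ oneK = 0 ∧ ∃ l, l ≠ oneK ∧ r χ l = 1 := by
    intro χ hne hmp
    have h0 : r χ oneK = 0 := by
      by_contra h0
      exact hne (huniq oneK χ one (Nat.mul_pos hmp (Nat.pos_of_ne_zero h0)) (by rw [hm1, hr1]; norm_num))
    obtain ⟨l, hl⟩ : ∃ l, r χ l ≠ 0 := by
      by_contra! hall
      exact CfsgLib.CharTheory.apply_one_ne_zero_of_isIrr χ.2 (by rw [hdeg]; simp [hall])
    have h2 := hle1 χ l
    have h3 : 1 ≤ r χ l := Nat.one_le_iff_ne_zero.2 hl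
    have h4 : m χ ≤ m χ * r χ l := Nat.le_mul_of_pos_right _ h3
    refine ⟨by omega, h0, l, fun e => hl (e ▸ h0), ?_⟩
    rw [show m χ = 1 by omega, one_mul] at h2
    omega
  -- the character attached to a non-trivial character of `K`
  choose ch hch using hexist
  have hch1 : ∀ l, l ≠ oneK → ch l ≠ one := by
    intro l hl e
    have h1 := hch l
    rw [e, hm1, one_mul] at h1
    have h2 : ∑ q : IrrCharacter K, (r one q : ℂ) = 1 := (hdeg one).symm
    have h3 : ∑ q : IrrCharacter K, r one q = 1 := by exact_mod_cast h2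
    have h4 := Finset.sum_le_sum_of_subset (f := fun q => r one q) (Finset.subset_univ {l, oneK})
    rw [Finset.sum_pair hl, hr1, h3] at h4
    omega
  have hrval : ∀ l, l ≠ oneK → ∀ χ, 0 < m χ → r χ l = if χ = ch l then 1 else 0 := by
    intro l hl χ hmp
    have hm' := hcon (ch l) (hch1 l hl) (Nat.pos_of_mul_pos_right (hch l))
    split_ifs with e
    · have := hle1 (ch l) l
      have := hch l
      rw [hm'.1, one_mul] at *
      rw [e]; omega
    · by_contra h0
      exact e (huniq l χ (ch l) (Nat.mul_pos hmp (Nat.pos_of_ne_zero h0)) (hch l))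
  -- invariance under the normaliser
  have hinv : ∀ (χ : IrrCharacter G) (l : IrrCharacter K) (n : normalizer (K : Set G)),
      r χ ⟨twist (l : K → ℂ) n, h.isIrr_twist l.2 n⟩ = r χ l := by
    intro χ l n
    have e1 := hr χ ⟨twist (l : K → ℂ) n, h.isIrr_twist l.2 n⟩
    have e2 := hr χ l
    suffices he : classInner (fun v : K => (χ : G → ℂ) v) (twist (l : K → ℂ) n) =
        classInner (fun v : K => (χ : G → ℂ) v) (l : K → ℂ) by
      rw [e1, e2] at he; exact_mod_cast he
    simp only [classInner]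
    congr 1
    let σ : K ≃ K :=
      { toFun := fun v => ⟨(n : G)⁻¹ * v * n, by
          have := (Subgroup.mem_normalizer_iff.1 (inv_mem n.2) (v : G)).1 v.2
          simpa using this⟩
        invFun := fun v => ⟨(n : G) * v * (n : G)⁻¹, (Subgroup.mem_normalizer_iff.1 n.2 _).1 v.2⟩
        left_inv := fun v => Subtype.ext (by simp [mul_assoc])
        right_inv := fun v => Subtype.ext (by simp [mul_assoc]) }
    refine Fintype.sum_equiv σ _ _ fun v => ?_
    show (χ : G → ℂ) v * conj ((l : K → ℂ) (σ v)) =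
      (χ : G → ℂ) (σ v : K) * conj ((l : K → ℂ) (σ v))
    congr 1
    show (χ : G → ℂ) v = (χ : G → ℂ) ((n : G)⁻¹ * v * n)
    have := CfsgLib.CharTheory.IsIrrCharacter.isClassFunction χ.2 (v : G) (n : G)⁻¹
    rw [inv_inv] at this
    exact this.symm
  -- orbits
  let conjTo : IrrCharacter K → IrrCharacter K → Prop := fun l q => ∃ n, twist (l : K → ℂ) n = q
  have hnt : ∀ l : IrrCharacter K, l ≠ oneK → (l : K → ℂ) ≠ fun _ => 1 := fun l hl e =>
    hl (Subtype.ext e)
  have hphi : ∀ l q, l ≠ oneK → q ≠ oneK → ch l ≠ ch q →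
      indFun K ((l : K → ℂ) - q) = (ch l : G → ℂ) - ch q := by
    intro l q hl hq hne
    have hlq : ∀ n, twist (l : K → ℂ) n ≠ (q : K → ℂ) := by
      intro n e
      refine hne (huniq q (ch l) (ch q) ?_ (hch q))
      rw [show q = ⟨twist (l : K → ℂ) n, h.isIrr_twist l.2 n⟩ from Subtype.ext e.symm, hinv]
      exact hch l
    have hgen : IsGeneralizedCharacter G (indFun K ((l : K → ℂ) - q)) :=
      CfsgLib.Frobenius.isGeneralizedCharacter_indFun K _ ⟨_, _,
        CfsgLib.CharTheory.IsIrrCharacter.isCharacter l.2,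
        CfsgLib.CharTheory.IsIrrCharacter.isCharacter q.2, rfl⟩
    obtain ⟨P, M, hP, hM, hPM, he⟩ := CfsgLib.Frobenius.exists_irr_sub_of_norm_two hgen
      (h.norm_two (hnt l hl) (hnt q hq) hlq)
      (by rw [CfsgLib.Frobenius.indFun_one]; simp [hone])
    have key : ∀ χ : IrrCharacter G, classInner (indFun K ((l : K → ℂ) - q)) (χ : G → ℂ) =
        (r χ l : ℂ) - r χ q := by
      intro χ
      rw [CfsgLib.Frobenius.classInner_indFun K _ _
        (CfsgLib.CharTheory.IsIrrCharacter.isClassFunction χ.2),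
        CfsgLib.CharTheory.classInner_sub_left,
        CfsgLib.CharTheory.classInner_conj_symm (l : K → ℂ),
        CfsgLib.CharTheory.classInner_conj_symm (q : K → ℂ), hr, hr, Complex.conj_natCast,
        Complex.conj_natCast]
    have hmp : ∀ l, 0 < m (ch l) := fun l => Nat.pos_of_mul_pos_right (hch l)
    have e1 := key (ch l)
    have e2 := key (ch q)
    rw [hrval l hl _ (hmp l), hrval q hq _ (hmp l), if_pos rfl, if_neg hne, he,
      CfsgLib.CharTheory.classInner_sub_left,
      CfsgLib.CharTheory.classInner_irr hP (ch l).2, CfsgLib.CharTheory.classInner_irr hM (ch l).2] at e1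
    rw [hrval l hl _ (hmp q), hrval q hq _ (hmp q), if_neg (Ne.symm hne), if_pos rfl, he,
      CfsgLib.CharTheory.classInner_sub_left,
      CfsgLib.CharTheory.classInner_irr hP (ch q).2, CfsgLib.CharTheory.classInner_irr hM (ch q).2] at e2
    have hPl : P = (ch l : G → ℂ) := by
      by_contra hn
      rw [if_neg hn] at e1
      split_ifs at e1 <;> norm_num at e1
    have hMq : M = (ch q : G → ℂ) := by
      by_contra hn
      rw [if_neg hn] at e2
      split_ifs at e2 <;> norm_num at e2
    rw [he, hPl, hMq]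
  set e := K.relIndex (normalizer (K : Set G)) with he
  have hcard1 : Nat.card (IrrCharacter K) = Nat.card K := by
    rw [CfsgLib.CharTheory.card_irrCharacter]
    letI : CommGroup K :=
      { (inferInstance : Group K) with mul_comm := fun a b => Subtype.ext (h.ab a a.2 b b.2) }
    exact (Nat.card_congr (Equiv.ofBijective ConjClasses.mk
      ⟨fun a b hab => isConj_iff_eq.1 (ConjClasses.mk_eq_mk_iff_isConj.1 hab),
        ConjClasses.mk_surjective⟩)).symm
  by_cases hall : ∃ χ₀, χ₀ ≠ one ∧ ∀ l, l ≠ oneK → ch l = χ₀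
  · -- one constituent: double transitivity
    obtain ⟨χ₀, hχ₀, hl⟩ := hall
    obtain ⟨l₀, hl₀⟩ : ∃ l : IrrCharacter K, l ≠ oneK := by
      haveI : Nontrivial (IrrCharacter K) :=
        Finite.one_lt_card_iff_nontrivial.1 (hcard1.symm ▸ h.one_lt)
      exact exists_ne _
    have hmpos : 0 < m χ₀ := hl l₀ hl₀ ▸ Nat.pos_of_mul_pos_right (hch l₀)
    have hmall : ∀ χ, χ ≠ one → χ ≠ χ₀ → m χ = 0 := by
      intro χ h1 h2
      by_contra h0
      obtain ⟨-, -, l, hl1, hl2⟩ := hcon χ h1 (Nat.pos_of_ne_zero h0)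
      refine h2 ((huniq l χ (ch l) ?_ (hch l)).trans (hl l hl1))
      rw [hl2, mul_one]; omega
    have hx0 : ∀ g : G, g ≠ 1 → (C g).index = (C x).index → fixes x g = 1 := by
      intro g hg1 hgi
      have hval : π g = 1 + (χ₀ : G → ℂ) g := by
        rw [hm, Finset.sum_apply, ← Finset.add_sum_erase _ _ (Finset.mem_univ one),
          Finset.sum_eq_single χ₀ (fun χ hχ hne => by
            rw [Finset.mem_erase] at hχ
            simp [hmall χ hχ.1 hne]) (fun hc => absurd (Finset.mem_erase.2
              ⟨hχ₀, Finset.mem_univ _⟩) hc)]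
        simp [hm1, (hcon χ₀ hχ₀ hmpos).1, one, CfsgLib.CharTheory.trivIrr_apply]
      have hd : (χ₀ : G → ℂ) 1 = ((Nat.card K - 1 : ℕ) : ℂ) := by
        rw [hdeg, ← Finset.add_sum_erase _ _ (Finset.mem_univ oneK), (hcon χ₀ hχ₀ hmpos).2.1,
          Finset.sum_congr rfl (fun l hl' => by
            rw [hrval l (Finset.mem_erase.1 hl').1 χ₀ hmpos,
              if_pos (hl l (Finset.mem_erase.1 hl').1).symm])]
        simp [Finset.card_erase_of_mem, ← Nat.card_eq_fintype_card, hcard1]
      have hz := vanish_aux hG hg1 χ₀.2 (fun e' => hχ₀ (Subtype.ext e')) hd (by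
        rw [hgi, ← h.card]
        have := h.one_lt
        rw [Nat.coprime_comm, show Nat.card K = (Nat.card K - 1) + 1 by omega]
        simp)
      rw [hz, add_zero] at hval
      exact_mod_cast (show ((fixes x g : ℕ) : ℂ) = 1 from hval)
    refine ⟨hx0, Or.inl ?_⟩
    haveI := hpre
    rw [← CfsgLib.CharTheory.card_orbits_prod_eq_two_iff (G ⧸ C x)
      (by rw [← index_eq_card, ← h.card]; exact h.one_lt)]
    have hn := CfsgLib.CharTheory.classInner_card_fixedBy_self (G := G) (G ⧸ C x)
    have hself : classInner π π = 2 := by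
      rw [hm, CfsgLib.CharTheory.classInner_sum_right]
      simp only [CfsgLib.CharTheory.classInner_smul_right, CfsgLib.CharTheory.classInner_sum_irr]
      rw [← Finset.add_sum_erase _ _ (Finset.mem_univ one),
        Finset.sum_eq_single χ₀ (fun χ hχ hne => by
          rw [Finset.mem_erase] at hχ
          simp [hmall χ hχ.1 hne]) (fun hc => absurd (Finset.mem_erase.2
            ⟨hχ₀, Finset.mem_univ _⟩) hc)]
      simp [hm1, (hcon χ₀ hχ₀ hmpos).1]
      norm_num
    exact_mod_cast hn.symm.trans hself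
  · push Not at hall
    -- every constituent is attached to a single orbit
    have horb : ∀ l q, l ≠ oneK → q ≠ oneK → ch l = ch q → conjTo l q := by
      intro l q hl hq heq
      by_contra hn
      obtain ⟨w, hw, hwne⟩ := hall (ch l) (hch1 l hl)
      have e1 := hphi l w hl hw (Ne.symm hwne)
      have e2 := hphi q w hq hw (heq ▸ Ne.symm hwne)
      have hz : indFun K ((l : K → ℂ) - q) = 0 := by
        rw [show (l : K → ℂ) - q = ((l : K → ℂ) - w) - ((q : K → ℂ) - w) by abel,
          CfsgLib.Frobenius.indFun_sub, e1, e2, heq, sub_self]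
      have := h.norm_two (hnt l hl) (hnt q hq) fun n e => hn ⟨n, e⟩
      rw [hz, CfsgLib.CharTheory.classInner_zero_left] at this
      norm_num at this
    have hconst : ∀ l, l ≠ oneK → (ch l : G → ℂ) 1 = (e : ℂ) := by
      intro l hl
      have hmp := Nat.pos_of_mul_pos_right (hch l)
      rw [hdeg, ← Finset.add_sum_erase _ _ (Finset.mem_univ oneK),
        (hcon _ (hch1 l hl) hmp).2.1, Nat.cast_zero, zero_add,
        Finset.sum_congr rfl (fun q hq => by rw [hrval q (Finset.mem_erase.1 hq).1 _ hmp])]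
      rw [← Nat.cast_sum, Finset.sum_boole, Nat.cast_id]
      norm_cast
      let N := normalizer (K : Set G)
      let f : N ⧸ K.subgroupOf N → IrrCharacter K :=
        Quotient.lift (fun n : N => (⟨twist (l : K → ℂ) n, h.isIrr_twist l.2 n⟩ : IrrCharacter K))
          (fun n n' hn => by
            have hn0 : n⁻¹ * n' ∈ K.subgroupOf N := QuotientGroup.leftRel_apply.1 hn
            have hn' : (n : G)⁻¹ * (n' : G) ∈ K := hn0
            apply Subtype.ext
            funext v
            refine congrArg (l : K → ℂ) (Subtype.ext ?_)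
            have hA : (n : G)⁻¹ * v * n ∈ K := by
              have := (Subgroup.mem_normalizer_iff.1 (inv_mem n.2) (v : G)).1 v.2
              simpa using this
            show (n : G)⁻¹ * v * n = (n' : G)⁻¹ * v * n'
            calc (n : G)⁻¹ * v * n
                = ((n : G)⁻¹ * n')⁻¹ * (((n : G)⁻¹ * n') * ((n : G)⁻¹ * v * n)) := by group
              _ = ((n : G)⁻¹ * n')⁻¹ * (((n : G)⁻¹ * v * n) * ((n : G)⁻¹ * n')) := by
                  rw [h.ab _ hn' _ hA]
              _ = (n' : G)⁻¹ * v * n' := by group)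
      have hfin : Function.Injective f := by
        intro a b
        induction a using QuotientGroup.induction_on with | H n =>
        induction b using QuotientGroup.induction_on with | H n' =>
        intro hab
        have hab' : twist (l : K → ℂ) n = twist (l : K → ℂ) n' := congrArg Subtype.val hab
        refine QuotientGroup.eq.2 (mem_subgroupOf.2 ?_)
        by_contra hnm
        refine hnt l hl (h.eq_one_of_twist (n := n⁻¹ * n') l.2 hnm ?_)
        funext v
        have hv : (n : G) * v * (n : G)⁻¹ ∈ K := (Subgroup.mem_normalizer_iff.1 n.2 _).1 v.2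
        have := congrFun hab' ⟨_, hv⟩
        simp only [twist] at this ⊢
        convert this.symm using 2
        · exact Subtype.ext (by push_cast; group)
        · exact Subtype.ext (by simp [mul_assoc])
      have himg : (Finset.univ.erase oneK).filter (fun q => ch l = ch q) =
          (Set.range f).toFinset := by
        ext q
        simp only [Finset.mem_filter, Finset.mem_erase, Finset.mem_univ, and_true, Set.mem_toFinset,
          Set.mem_range]
        constructor
        · rintro ⟨hq, heq⟩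
          obtain ⟨n, hn⟩ := horb l q hl hq heq
          exact ⟨QuotientGroup.mk n, Subtype.ext hn⟩
        · rintro ⟨a, rfl⟩
          induction a using QuotientGroup.induction_on with | H n =>
          have hr' : 0 < m (ch l) * r (ch l) (f (QuotientGroup.mk n)) := by
            show 0 < m (ch l) * r (ch l) ⟨twist (l : K → ℂ) n, h.isIrr_twist l.2 n⟩
            rw [hinv]; exact hch l
          have hq : f (QuotientGroup.mk n) ≠ oneK := fun e' => by
            rw [e', (hcon _ (hch1 l hl) hmp).2.1, mul_zero] at hr'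
            exact lt_irrefl 0 hr'
          exact ⟨hq, huniq _ _ _ hr' (hch _)⟩
      rw [himg, Set.toFinset_range, Finset.card_image_of_injective _ hfin, Finset.card_univ,
        ← Nat.card_eq_fintype_card, he, relIndex, index_eq_card]
    have hecop : e.Coprime (C x).index := by
      rw [← h.card, Nat.coprime_comm]
      refine Nat.Coprime.coprime_dvd_right ?_ h.coprime
      have h1 : Nat.card K * e * (normalizer (K : Set G)).index = Nat.card K * Nat.card (C x) := by
        rw [mul_assoc, he, relIndex_mul_index le_normalizer, card_mul_index,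
          ← card_mul_index (C x), ← h.card, mul_comm]
      exact ⟨_, (Nat.eq_of_mul_eq_mul_left Nat.card_pos (by rw [← mul_assoc]; exact h1)).symm⟩
    have hcases : ∀ χ, χ ≠ one → m χ ≠ 0 → ∃ l, l ≠ oneK ∧ χ = ch l := by
      intro χ h1 h2
      obtain ⟨-, -, l, hl, hl1⟩ := hcon χ h1 (Nat.pos_of_ne_zero h2)
      exact ⟨l, hl, huniq l χ (ch l) (by rw [hl1, mul_one]; omega) (hch l)⟩
    have hsplit : ∀ t, π t = 1 + ∑ χ ∈ Finset.univ.erase one, (m χ : ℂ) * (χ : G → ℂ) t := by
      intro t
      rw [hm, Finset.sum_apply, ← Finset.add_sum_erase _ _ (Finset.mem_univ one)]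
      simp [hm1, one, CfsgLib.CharTheory.trivIrr_apply]
    have hxz : ∀ l, l ≠ oneK → ∀ g : G, g ≠ 1 → (C g).index = (C x).index →
        (ch l : G → ℂ) g = 0 := fun l hl g hg1 hgi =>
      vanish_aux hG hg1 (ch l).2 (fun e' => hch1 l hl (Subtype.ext e')) (hconst l hl)
        (hgi ▸ hecop)
    have hx0 : ∀ g : G, g ≠ 1 → (C g).index = (C x).index → fixes x g = 1 := by
      intro g hg1 hgi
      have := hsplit g
      rw [Finset.sum_eq_zero, add_zero] at this
      · exact_mod_cast (show ((fixes x g : ℕ) : ℂ) = 1 from this)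
      intro χ hχ
      by_cases h0 : m χ = 0
      · simp [h0]
      · obtain ⟨l, hl, rfl⟩ := hcases χ (Finset.mem_erase.1 hχ).1 h0
        rw [hxz l hl g hg1 hgi, mul_zero]
    obtain ⟨l₀, hl₀⟩ : ∃ l : IrrCharacter K, l ≠ oneK := by
      haveI : Nontrivial (IrrCharacter K) :=
        Finite.one_lt_card_iff_nontrivial.1 (hcard1.symm ▸ h.one_lt)
      exact exists_ne _
    refine ⟨hx0, Or.inr ⟨ch l₀, (ch l₀).2, hconst l₀ hl₀, fun t ht hK => ?_⟩⟩
    have hsame : ∀ l, l ≠ oneK → (ch l : G → ℂ) t = (ch l₀ : G → ℂ) t := by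
      intro l hl
      by_cases heq : ch l = ch l₀
      · rw [heq]
      · have := congrFun (hphi l l₀ hl hl₀ heq) t
        rw [CfsgLib.Frobenius.indFun_eq_zero_of_forall_conj_not_mem K _ hK] at this
        exact sub_eq_zero.1 this.symm
    have hts := hsplit t
    rw [show π t = 1 from by show ((fixes x t : ℕ) : ℂ) = 1; rw [ht]; norm_num] at hts
    rw [Finset.sum_congr rfl (g := fun χ => (m χ : ℂ) * (ch l₀ : G → ℂ) t) (fun χ hχ => by
      by_cases h0 : m χ = 0
      · simp [h0]
      · obtain ⟨l, hl, rfl⟩ := hcases χ (Finset.mem_erase.1 hχ).1 h0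
        rw [hsame l hl]), ← Finset.sum_mul] at hts
    have hpos : (∑ χ ∈ Finset.univ.erase one, (m χ : ℂ)) ≠ 0 := by
      rw [← Nat.cast_sum, Nat.cast_ne_zero]
      refine (Nat.pos_of_ne_zero fun h0 => ?_).ne'
      have := Finset.sum_eq_zero_iff.1 h0 (ch l₀) (Finset.mem_erase.2 ⟨hch1 l₀ hl₀, Finset.mem_univ _⟩)
      exact (Nat.pos_of_mul_pos_right (hch l₀)).ne' this
    exact (mul_eq_zero.1 (by linear_combination -hts :
      (∑ χ ∈ Finset.univ.erase one, (m χ : ℂ)) * (ch l₀ : G → ℂ) t = 0)).resolve_left hpos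

end Main

end CfsgLib.CoreFree.RankThree
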