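import Cfsg.Agent.Lib.CoreFree.RankThree.Structure
import Cfsg.Agent.Lib.CoreFree.RankThree.PermChar
import Cfsg.Agent.Lib.Involutions.BrauerSuzuki

/-!
# Simple groups with three class sizes, two of them comparable: abelian involution centralisers
-/

set_option autoImplicit false
set_option linter.style.haveILetI false

namespace CfsgLib.CoreFree.RankThree

open Subgroup MulAction CfsgLib.ClassSizes3

universe u

variable {G : Type u} [Group G] [Fintype G] [IsSimpleGroup G] {a b c : ℕ}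

theorem pel_of_prime_order {z : G} {p : ℕ} (hz : orderOf z = p) : PEl p z :=
  ⟨1, by rw [pow_one, ← hz]; exact pow_orderOf_eq_one z⟩

theorem ne_one_of_prime_order {z : G} {p : ℕ} (hp : p.Prime) (hz : orderOf z = p) : z ≠ 1 :=
  fun e => by rw [e, orderOf_one] at hz; exact hp.ne_one hz.symm

/-- A point is fixed as soon as a conjugate of `x` commutes. -/
theorem fixes_pos_of_commute {x t g : G} (h : Commute t (g * x * g⁻¹)) : 0 < fixes x t :=
  haveI : Nonempty (fixedBy (G ⧸ C x) t) := ⟨⟨_, mem_fixedBy_mk.2 h⟩⟩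
  Nat.card_pos

/-- A unique involution in a Sylow subgroup contradicts simplicity. -/
theorem false_of_unique_involution (hZ : center G = ⊥) (P : Sylow 2 G) {u : G} (hu : orderOf u = 2)
    (huP : u ∈ (P : Subgroup G)) (hiso : ∀ g : G, g * u * g⁻¹ ∈ (P : Subgroup G) → g * u * g⁻¹ = u) :
    False := by
  have hu1 := ne_one_of_prime_order Nat.prime_two hu
  have hO : Cfsg.oddCore G = ⊥ := by
    rcases (inferInstance : (Cfsg.oddCore G).Normal).eq_bot_or_eq_top with e | e
    · exact e
    · exfalso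
      have := CfsgLib.Cores.odd_card_oddCore (G := G)
      rw [e, card_top] at this
      exact Nat.not_even_iff_odd.2 this (even_iff_two_dvd.2 (hu ▸ orderOf_dvd_natCard u))
  refine hu1 ?_
  have hc : u ∈ center G := mem_center_iff.2 fun g => by
    have h := CfsgLib.Involutions.zstar_isolated P hu hiso g
    rw [hO, mem_bot] at h
    exact (mul_inv_eq_iff_eq_mul.1 (mul_inv_eq_one.1 h)).symm
  rwa [hZ, mem_bot] at hc

/-- The double transitive case is impossible. -/
theorem Pair.not_two_transitive (h : Pair G a b c) (hab : a ∣ b) {r : ℕ} (hr : r.Prime) {x : G}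
    (hx : orderOf x = r) (hxa : cl x = a) (hCx : Nat.card (C x) = c) {K : Subgroup G}
    (hT : Torus x K) (hfix : fixes x x = 1)
    (hone : ∀ {p : ℕ}, p.Prime → p ≠ r → ∀ {w : G}, PEl p w → w ≠ 1 → ¬ p ∣ a → fixes x w = 1)
    (h2 : IsMultiplyPretransitive G (G ⧸ C x) 2) : False := by
  classical
  haveI := Fact.mk hr
  have h2' : ∀ a b c d : G ⧸ C x, a ≠ b → c ≠ d → ∃ g : G, g • a = c ∧ g • b = d :=
    fun _ _ _ _ => (is_two_pretransitive_iff (G := G) (α := G ⧸ C x)).1 h2
  have hx1 := ne_one_of_prime_order hr hx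
  have hac : a.Coprime c := Nat.coprime_of_dvd fun p hp u v => h.cop p hp ⟨u, v⟩
  have hka : Nat.card K = a := hT.card.trans hxa
  have ha1 : 1 < a := hka ▸ hT.one_lt
  -- two points
  let y₀ : G ⧸ C x := QuotientGroup.mk 1
  obtain ⟨g₁, hg₁⟩ : ∃ g₁ : G, (QuotientGroup.mk g₁ : G ⧸ C x) ≠ y₀ := by
    haveI : Nontrivial (G ⧸ C x) := Finite.one_lt_card_iff_nontrivial.1 (by
      rw [← index_eq_card]; exact (hxa ▸ ha1 : 1 < cl x))
    obtain ⟨q, hq⟩ := exists_ne y₀
    obtain ⟨g, rfl⟩ := QuotientGroup.mk_surjective q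
    exact ⟨g, hq⟩
  set x' := g₁ * x * g₁⁻¹ with hx'
  -- conjugates of `x` fix a single point
  have hfix' : ∀ g : G, ∀ q : G ⧸ C x, q ∈ fixedBy (G ⧸ C x) (g * x * g⁻¹) → q = QuotientGroup.mk g := by
    intro g q hq
    haveI := (Nat.card_eq_one_iff_unique.1 hfix).1
    have e1 : g⁻¹ • q ∈ fixedBy (G ⧸ C x) x := by
      rw [mem_fixedBy] at hq ⊢
      conv_rhs => rw [← hq]
      rw [smul_smul, smul_smul]; congr 1; group
    have e2 : y₀ ∈ fixedBy (G ⧸ C x) x :=
      mem_fixedBy_mk.2 (by simp)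
    have := congrArg Subtype.val (Subsingleton.elim (⟨_, e1⟩ : fixedBy (G ⧸ C x) x) ⟨_, e2⟩)
    have := congrArg (fun z => g • z) this
    simpa [y₀, Quotient.smul_mk] using this
  -- the quotient of two conjugates fixes no point
  set z := x' * x⁻¹ with hz
  have hfree : ∀ q : G ⧸ C x, z • q ≠ q := by
    intro y hy
    -- `p ↦ x_p⁻¹ • y`
    let φ : {p : G ⧸ C x // p ≠ y} → {p : G ⧸ C x // p ≠ y} := fun p =>
      ⟨((Quotient.out p.1) * x * (Quotient.out p.1)⁻¹)⁻¹ • y, fun e => p.2 (by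
        have e' : y ∈ fixedBy (G ⧸ C x) ((Quotient.out p.1) * x * (Quotient.out p.1)⁻¹) := by
          rw [mem_fixedBy]
          exact (inv_smul_eq_iff.1 e).symm
        exact ((hfix' _ _ e').trans (QuotientGroup.out_eq' p.1)).symm)⟩
    have hφ : ∀ (g : G) (hg : (QuotientGroup.mk g : G ⧸ C x) ≠ y),
        (φ ⟨_, hg⟩ : G ⧸ C x) = (g * x * g⁻¹)⁻¹ • y := by
      intro g hg
      show ((Quotient.out (QuotientGroup.mk g : G ⧸ C x)) * x * _⁻¹)⁻¹ • y = _
      obtain ⟨u, hu⟩ := QuotientGroup.mk_out_eq_mul (C x) g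
      rw [hu]
      congr 2
      calc g * (u : G) * x * (g * (u : G))⁻¹ = g * ((u : G) * x) * (u : G)⁻¹ * g⁻¹ := by group
        _ = g * (x * (u : G)) * (u : G)⁻¹ * g⁻¹ := by rw [mem_C.1 u.2]
        _ = g * x * g⁻¹ := by group
    have hsurj : Function.Surjective φ := by
      rintro ⟨q, hq⟩
      obtain ⟨g, hg⟩ : ∃ g : G, (QuotientGroup.mk g : G ⧸ C x) ≠ y := by
        obtain ⟨g, rfl⟩ := QuotientGroup.mk_surjective q
        exact ⟨g, hq⟩
      obtain ⟨l, hly, hlq⟩ := h2' (a := y) (b := (φ ⟨_, hg⟩ : G ⧸ C x)) (c := y) (d := q)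
        (φ ⟨_, hg⟩).2.symm (Ne.symm hq)
      have hlg : (QuotientGroup.mk (l * g) : G ⧸ C x) ≠ y := fun e => hg (by
        have : l • (QuotientGroup.mk g : G ⧸ C x) = l • y := by
          rw [hly]; exact e
        exact smul_left_cancel l this)
      refine ⟨⟨_, hlg⟩, Subtype.ext ?_⟩
      rw [hφ _ hlg]
      show _ = q
      rw [← hlq, hφ _ hg]
      conv_lhs => arg 2; rw [← hly]
      rw [smul_smul, smul_smul]
      congr 1
      group
    have hinj := Finite.injective_iff_surjective.2 hsurj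
    have e1 : x'⁻¹ • y = x⁻¹ • y := by
      conv_lhs => rw [← hy]
      rw [smul_smul]; congr 1; rw [hz]; group
    by_cases hp : y₀ = y
    · have : y ∈ fixedBy (G ⧸ C x) (g₁ * x * g₁⁻¹) := by
        have hxy : x⁻¹ • y = y := by
          rw [← hp, inv_smul_eq_iff]
          exact (mem_fixedBy_mk.2 (by simp : Commute x ((1 : G) * x * (1 : G)⁻¹))).symm
        rw [mem_fixedBy]
        conv_lhs => arg 2; rw [← hxy, ← e1]
        rw [smul_inv_smul]
      exact hg₁ ((hfix' _ _ this).symm.trans hp.symm)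
    by_cases hp' : (QuotientGroup.mk g₁ : G ⧸ C x) = y
    · have hx'y : x'⁻¹ • y = y := by
        rw [← hp', inv_smul_eq_iff]
        exact (mem_fixedBy_mk.2 (Commute.refl x' : Commute x' (g₁ * x * g₁⁻¹))).symm
      have : y ∈ fixedBy (G ⧸ C x) (1 * x * 1⁻¹) := by
        rw [one_mul, inv_one, mul_one, mem_fixedBy]
        conv_lhs => arg 2; rw [← hx'y, e1]
        rw [smul_inv_smul]
      exact hg₁ (hp'.trans (hfix' _ _ this))
    have := hinj (a₁ := ⟨_, hp'⟩) (a₂ := ⟨_, hp⟩) (Subtype.ext (by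
      rw [hφ _ hp', hφ 1 hp]
      simpa [hx', mul_assoc] using e1))
    exact hg₁ (congrArg Subtype.val this)
  have hz1 : z ≠ 1 := fun e => hfree y₀ (by rw [e, one_smul])
  -- the class of `z` has size `c`
  have hclz : cl z = c := by
    obtain ⟨p, v, hp, hv, hvz, hv1⟩ := exists_pel_notMem (⊥ : Subgroup G) (by rwa [mem_bot])
    rw [mem_bot] at hv1
    haveI := Fact.mk hp
    obtain ⟨i, hi⟩ := mem_zpowers_iff.1 hvz
    have hcz : Commute v z := hi ▸ Commute.zpow_self z i
    have hsolo : ∀ {q : ℕ}, q.Prime → q ≠ r → ∀ {w : G}, PEl q w → w ≠ 1 → ¬ q ∣ a → ¬ Commute w z := by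
      intro q hq hqr w hw hw1 hqa hc
      obtain ⟨⟨pt, hpt⟩⟩ := (Nat.card_eq_one_iff_unique.1 (hone hq hqr hw hw1 hqa)).2
      haveI := (Nat.card_eq_one_iff_unique.1 (hone hq hqr hw hw1 hqa)).1
      refine hfree pt ?_
      have : z • pt ∈ fixedBy (G ⧸ C x) w := by
        rw [mem_fixedBy, smul_smul, hc.eq, ← smul_smul, mem_fixedBy.1 hpt]
      exact congrArg Subtype.val
        (Subsingleton.elim (⟨_, this⟩ : fixedBy (G ⧸ C x) w) ⟨pt, hpt⟩)
    have hpa : p ∣ a := by
      by_contra hpa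
      by_cases hpr : p = r
      · subst hpr
        -- all parts of `z` are `p`-elements
        have hzp : z ∈ (Subgroup.zpowers v) ∨ ∃ q w, q ≠ p ∧ Nat.Prime q ∧ PEl q w ∧ w ≠ 1 ∧ w ∈ zpowers z :=
          Classical.or_iff_not_imp_right.2 fun hno => by
            exfalso
            push Not at hno
            have hzel : PEl p z := by
              have hunique : ∀ {d : ℕ}, d.Prime → d ∣ orderOf z → d = p := by
                intro d hd hdz
                by_contra hne
                haveI := Fact.mk hd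
                obtain ⟨⟨w, hw⟩, hwo⟩ := exists_prime_orderOf_dvd_card' d
                  ((Nat.card_zpowers z).symm ▸ hdz : d ∣ Nat.card (zpowers z))
                rw [orderOf_mk] at hwo
                exact hno d w hne hd (pel_of_prime_order hwo) (ne_one_of_prime_order hd hwo) hw
              exact ⟨_, Nat.eq_prime_pow_of_unique_prime_dvd (orderOf_pos z).ne' hunique ▸
                pow_orderOf_eq_one z⟩
            obtain ⟨g, hg⟩ := exists_conj_commute (x := x) hzel (by rw [hxa]; exact hpa)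
            exact hfree _ (mem_fixedBy.1 (mem_fixedBy_mk.2 hg))
        rcases hzp with hzp | ⟨q, w, hqp, hq, hw, hw1, hwz⟩
        · obtain ⟨g, hg⟩ := exists_conj_commute (x := x) hv (by rw [hxa]; exact hpa)
          obtain ⟨j, hj⟩ := mem_zpowers_iff.1 hzp
          exact hfree _ (mem_fixedBy.1 (mem_fixedBy_mk.2 (hj ▸ hg.zpow_left j)))
        · haveI := Fact.mk hq
          obtain ⟨j, hj⟩ := mem_zpowers_iff.1 hwz
          have hwz' : Commute w z := hj ▸ Commute.zpow_self z j
          by_cases hqa : q ∣ a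
          · exact h.separated hw hw1 (fun hc => h.cop q hq ⟨hqa, hc⟩) hv hv1 hpa hqp
              (hj ▸ hi ▸ Commute.zpow_zpow_self z j i)
          · exact hsolo hq hqp hw hw1 hqa hwz'
      · exact hsolo hp hpr hv hv1 hpa hcz
    obtain ⟨hcard, -, hcent⟩ := h.exists_torus hab hv hv1 fun hc => h.cop p hp ⟨hpa, hc⟩
    have e := hcent z (mem_C.2 hcz.symm.eq) hz1
    have := card_C_mul_cl z
    rw [e, hcard, h.card_eq] at this
    exact Nat.eq_of_mul_eq_mul_left (by omega) this
  -- the point stabiliser is regular on the other points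
  set D := C x ⊓ C x' with hD
  have hDz : D ≤ C z := by
    intro d hd
    rw [mem_C]
    have h1 : Commute d x := mem_C.1 hd.1
    have h3 : Commute d x' := mem_C.1 hd.2
    exact (h3.mul_right h1.inv_right).eq
  have horb : Nat.card ↥(orbit (C x) (QuotientGroup.mk g₁ : G ⧸ C x)) = a - 1 := by
    have e : orbit (C x) (QuotientGroup.mk g₁ : G ⧸ C x) = {y₀}ᶜ := by
      ext q
      constructor
      · rintro ⟨⟨l, hl⟩, rfl⟩ e
        rw [Set.mem_singleton_iff] at e
        have hly : l • y₀ = y₀ := by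
          show ((l * 1 : G) : G ⧸ C x) = _
          rw [mul_one, QuotientGroup.eq, mul_one]
          exact inv_mem hl
        exact hg₁ (smul_left_cancel l (e.trans hly.symm))
      · intro hq
        obtain ⟨l, hl0, hlq⟩ := h2' (a := y₀) (b := (QuotientGroup.mk g₁ : G ⧸ C x)) (c := y₀) (d := q)
          (Ne.symm hg₁) (Ne.symm hq)
        have hlC : l ∈ C x := by
          have : ((l * 1 : G) : G ⧸ C x) = ((1 : G) : G ⧸ C x) := hl0
          rw [mul_one, QuotientGroup.eq, mul_one] at this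
          exact inv_mem_iff.1 this
        exact ⟨⟨l, hlC⟩, hlq⟩
    rw [e, Nat.card_coe_set_eq, Set.ncard_compl, Set.ncard_singleton, ← index_eq_card]
    show cl x - 1 = a - 1
    rw [hxa]
  have hstab : Nat.card (stabilizer (C x) (QuotientGroup.mk g₁ : G ⧸ C x)) = Nat.card D := by
    refine Nat.card_congr
      { toFun := fun l => ⟨(l.1 : G), l.1.2, mem_C.2 ?_⟩
        invFun := fun d => ⟨⟨d.1, d.2.1⟩, ?_⟩
        left_inv := fun _ => rfl
        right_inv := fun _ => rfl }
    · exact (mem_fixedBy_mk.1 (mem_fixedBy.2 (mem_stabilizer_iff.1 l.2 :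
        (l.1 : G) • (QuotientGroup.mk g₁ : G ⧸ C x) = _))).eq
    · exact mem_stabilizer_iff.2 (mem_fixedBy.1 (mem_fixedBy_mk.2 (mem_C.1 d.2.2)))
  have hDc : Nat.card D * (a - 1) = c := by
    rw [← hCx, ← horb, ← hstab, mul_comm, ← Nat.card_prod]
    exact Nat.card_congr (orbitProdStabilizerEquivGroup (C x) (QuotientGroup.mk g₁ : G ⧸ C x))
  have hd1 : Nat.card D = 1 := by
    have h1 : c ∣ D.index := hclz ▸ index_dvd_of_le hDz
    have h3 : D.index = a * (a - 1) := by
      have := D.card_mul_index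
      rw [h.card_eq] at this
      refine Nat.eq_of_mul_eq_mul_left (Nat.card_pos (α := D)) ?_
      rw [this, ← hDc]; ring
    rw [h3] at h1
    have h4 : c ∣ a - 1 := hac.symm.dvd_of_dvd_mul_left h1
    rw [← hDc] at h4
    have := Nat.le_of_dvd (by omega) h4
    have hpos := Nat.card_pos (α := D)
    exact le_antisymm (Nat.le_of_mul_le_mul_right (by rwa [one_mul]) (show 0 < a - 1 by omega)) hpos
  rw [hd1, one_mul] at hDc
  -- every non-identity element fixes at most one point
  have hle1 : ∀ g : G, g ≠ 1 → fixes x g ≤ 1 := by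
    intro g hg
    by_contra hgt
    push Not at hgt
    haveI : Nontrivial (fixedBy (G ⧸ C x) g) := Finite.one_lt_card_iff_nontrivial.1 hgt
    obtain ⟨⟨p, hp⟩, ⟨q, hq⟩, hne⟩ := exists_pair_ne (fixedBy (G ⧸ C x) g)
    obtain ⟨l, hl1, hl2⟩ := h2' (a := p) (b := q) (c := y₀) (d := (QuotientGroup.mk g₁ : G ⧸ C x))
      (fun e => hne (Subtype.ext e)) (Ne.symm hg₁)
    have hgC : l * g * l⁻¹ ∈ D := by
      have key : ∀ {u : G ⧸ C x}, u ∈ fixedBy (G ⧸ C x) g → (l * g * l⁻¹) • (l • u) = l • u := by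
        intro u hu
        rw [smul_smul, show l * g * l⁻¹ * l = l * g by group, ← smul_smul, mem_fixedBy.1 hu]
      have k1 := key hp
      have k2 := key hq
      rw [hl1] at k1
      rw [hl2] at k2
      refine ⟨mem_C.2 ?_, mem_C.2 (mem_fixedBy_mk.1 (mem_fixedBy.2 k2)).eq⟩
      have := (mem_fixedBy_mk.1 (mem_fixedBy.2 k1)).eq
      simpa using this
    rw [eq_bot_of_card_eq D hd1, mem_bot] at hgC
    exact hg (conj_eq_one_iff.1 hgC)
  -- count
  have hcount := sum_card_fixedBy_eq_card_orbits_mul_card_group G (G ⧸ C x)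
  have hq1 : Fintype.card (orbitRel.Quotient G (G ⧸ C x)) = 1 := by
    rw [Fintype.card_eq_one_iff]
    exact ⟨Quotient.mk'' y₀, fun q => Quotient.inductionOn' q fun u =>
      Quotient.sound' (orbitRel_apply.2 (exists_smul_eq G y₀ u))⟩
  rw [hq1, one_mul] at hcount
  replace hcount : ∑ g : G, fixes x g = Fintype.card G := by
    rw [← hcount]; exact Finset.sum_congr rfl fun g _ => Nat.card_eq_fintype_card
  set S := (Finset.univ.erase (1 : G)).filter (fun g => fixes x g = 0) with hS
  have hSc : S.card = a - 1 := by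
    rw [← Finset.add_sum_erase _ _ (Finset.mem_univ (1 : G))] at hcount
    have e1 : fixes x (1 : G) = a := by
      rw [← hxa]
      show _ = (C x).index
      rw [index_eq_card, fixes]
      exact Nat.card_congr
        ((Equiv.setCongr (Set.ext fun q => by simp)).trans (Equiv.Set.univ (G ⧸ C x)))
    have e2 : ∑ g ∈ Finset.univ.erase (1 : G), fixes x g =
        ((Finset.univ.erase (1 : G)).filter (fun g => ¬ fixes x g = 0)).card := by
      rw [Finset.card_filter]
      refine Finset.sum_congr rfl fun g hg => ?_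
      have := hle1 g (Finset.mem_erase.1 hg).1
      split_ifs <;> omega
    have e3 := Finset.card_filter_add_card_filter_not (s := Finset.univ.erase (1 : G))
      (fun g => fixes x g = 0)
    have e4 : (Finset.univ.erase (1 : G)).card + 1 = Fintype.card G :=
      Finset.card_erase_add_one (Finset.mem_univ 1)
    rw [hS]
    omega
  -- the torus is normal
  let A := (Finset.univ : Finset G).filter (fun g => g ∈ K ∧ g ≠ 1)
  have hsub : A ⊆ S := by
    intro v hv
    obtain ⟨-, hvK, hv1⟩ := Finset.mem_filter.1 hv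
    refine Finset.mem_filter.2 ⟨Finset.mem_erase.2 ⟨hv1, Finset.mem_univ _⟩, ?_⟩
    by_contra h0
    obtain ⟨⟨q, hq⟩⟩ := (Nat.card_pos_iff.1 (Nat.pos_of_ne_zero h0)).1
    obtain ⟨g, rfl⟩ := QuotientGroup.mk_surjective q
    have hc : g * x * g⁻¹ ∈ K := by
      rw [← hT.cent v hvK hv1, mem_C]
      exact (mem_fixedBy_mk.1 hq).eq.symm
    have hd : orderOf x ∣ Nat.card K := by
      have := orderOf_dvd_natCard (⟨_, hc⟩ : K)
      rwa [orderOf_mk, show g * x * g⁻¹ = MulAut.conj g x from rfl, MulEquiv.orderOf_eq] at this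
    have hd' : orderOf x ∣ Nat.card (C x) := by
      have := orderOf_dvd_natCard (⟨x, self_mem_C x⟩ : C x)
      rwa [orderOf_mk] at this
    exact hx1 (orderOf_eq_one_iff.1 (Nat.eq_one_of_dvd_one (hT.coprime ▸ Nat.dvd_gcd hd hd')))
  have hAc : A.card = a - 1 := by
    have e : A = ((Finset.univ : Finset G).filter (fun g => g ∈ K)).erase 1 := by
      ext g; simp [A, and_comm]
    rw [e, Finset.card_erase_of_mem (Finset.mem_filter.2 ⟨Finset.mem_univ _, one_mem K⟩),
      ← Fintype.card_subtype, ← Nat.card_eq_fintype_card, hka]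
  have hAS : A = S := Finset.eq_of_subset_of_card_le hsub (by omega)
  have hKn : K.Normal := by
    refine ⟨fun v hv g => ?_⟩
    by_cases hv1 : v = 1
    · simp [hv1]
    have hv0 : fixes x v = 0 := (Finset.mem_filter.1 (hsub (by simp [A, hv, hv1]))).2
    have hm : g * v * g⁻¹ ∈ S := by
      refine Finset.mem_filter.2 ⟨Finset.mem_erase.2 ⟨fun e => hv1 (conj_eq_one_iff.1 e),
        Finset.mem_univ _⟩, ?_⟩
      by_contra h0
      obtain ⟨⟨q, hq⟩⟩ := (Nat.card_pos_iff.1 (Nat.pos_of_ne_zero h0)).1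
      have : 0 < fixes x v := by
        haveI : Nonempty (fixedBy (G ⧸ C x) v) := ⟨⟨g⁻¹ • q, by
          rw [mem_fixedBy] at hq ⊢
          conv_rhs => rw [← hq]
          rw [smul_smul, smul_smul]; congr 1; group⟩⟩
        exact Nat.card_pos
      omega
    rw [← hAS] at hm
    exact (Finset.mem_filter.1 hm).2.1
  rcases hKn.eq_bot_or_eq_top with e | e
  · rw [e, card_bot] at hka; omega
  · exact h.notComm fun u v => hT.ab u (e ▸ mem_top u) v (e ▸ mem_top v)

/-- Involution centralisers are abelian when two of three class sizes are comparable. -/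
theorem Pair.centralizer_comm (h : Pair G a b c) (hab : a ∣ b) (t : G) (ht : orderOf t = 2) :
    ∀ u ∈ C t, ∀ v ∈ C t, u * v = v * u := by
  classical
  haveI h2f : Fact (Nat.Prime 2) := ⟨Nat.prime_two⟩
  have ht1 := ne_one_of_prime_order Nat.prime_two ht
  by_cases h2c : 2 ∣ c
  swap
  · exact (h.exists_torus hab (pel_of_prime_order ht) ht1 h2c).2.1
  exfalso
  have h2a : ¬ 2 ∣ a := fun ha => h.cop 2 Nat.prime_two ⟨ha, h2c⟩
  obtain ⟨r, x, hr, hx, hxa⟩ := h.exists_prime_order
  obtain ⟨s, y, hs, hy, hyc⟩ := h.symm.exists_prime_order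
  haveI := Fact.mk hr
  haveI := Fact.mk hs
  have hx1 := ne_one_of_prime_order hr hx
  have hy1 := ne_one_of_prime_order hs hy
  have hsc : ¬ s ∣ c := fun hd => h.cl_ne_c (pel_of_prime_order hy) hy1
    (fun ha => h.cop s hs ⟨ha, hd⟩) hyc
  obtain ⟨hka, hKab, hKcent⟩ := h.exists_torus hab (pel_of_prime_order hy) hy1 hsc
  set K := C y
  have h0 : 0 < a := hka ▸ Nat.card_pos
  have hCx : Nat.card (C x) = c := by
    have := card_C_mul_cl x
    rw [hxa, h.card_eq, mul_comm a c] at this
    exact Nat.eq_of_mul_eq_mul_right h0 this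
  have hac : a.Coprime c := Nat.coprime_of_dvd fun p hp u v => h.cop p hp ⟨u, v⟩
  have hindex : (C x).index = a := hxa
  have ha1 : 1 < a := by
    rcases Nat.lt_or_ge 1 a with h1 | h1
    · exact h1
    · exact absurd (hxa.trans (by omega : a = 1)) fun e => hx1 (by
        have := cl_eq_one.1 e; rwa [h.center_bot, mem_bot] at this)
  have hT : Torus x K := ⟨hKab, hKcent, hka.trans hindex.symm, by rw [hka, hCx]; exact hac,
    by rw [hka]; exact ha1⟩
  obtain ⟨hA, hdich⟩ := hT.main h.center_bot hx1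
  have hfix := hA x hx1 rfl
  have hZ := h.center_bot
  -- commuting conjugates of `x` coincide
  have hiso : ∀ g g' : G, Commute (g * x * g⁻¹) (g' * x * g'⁻¹) → g * x * g⁻¹ = g' * x * g'⁻¹ := by
    intro g g' hc
    have hf : fixes x (g * x * g⁻¹) = 1 := hA _ (fun e => hx1 (conj_eq_one_iff.1 e)) (cl_conj g x)
    exact unique_of_fixes_one hf (Commute.refl _) hc
  by_cases hr2 : r = 2
  · -- an isolated involution
    subst hr2
    obtain ⟨D, hD, hxD⟩ := exists_sylowIn_ge (p := 2) (H := C x)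
      (IsPGroup.of_card (n := 1) (G := zpowers x) (by rw [Nat.card_zpowers, hx, pow_one]))
      (zpowers_le.2 (self_mem_C x))
    have hfull := hD.full (by rw [hindex]; exact h2a)
    refine false_of_unique_involution hZ (Sylow.ofCard D (by rw [hfull.card, card_top])) hx
      (hxD (mem_zpowers x)) fun g hg => ?_
    have := hiso g 1 (by rw [one_mul, inv_one, mul_one]; exact mem_C.1 (hD.le hg))
    simpa using this
  -- elements of prime power order outside the torus fix at most one point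
  have hone : ∀ {p : ℕ}, p.Prime → p ≠ r → ∀ {w : G}, PEl p w → w ≠ 1 → ¬ p ∣ a →
      fixes x w = 1 := by
    intro p hp hpr w hw hw1 hpa
    haveI := Fact.mk hp
    obtain ⟨g, hg⟩ := exists_conj_commute (x := x) hw (by rwa [hxa])
    rcases h.sizes w hw1 with e | e | e
    · exact hA w hw1 (e.trans hindex.symm)
    · refine le_antisymm ?_ (fixes_pos_of_commute hg)
      rw [fixes, Finite.card_le_one_iff_subsingleton]
      refine ⟨fun ⟨q₁, h₁⟩ ⟨q₂, h₂⟩ => Subtype.ext ?_⟩
      obtain ⟨g₁, rfl⟩ := QuotientGroup.mk_surjective q₁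
      obtain ⟨g₂, rfl⟩ := QuotientGroup.mk_surjective q₂
      have c1 := mem_fixedBy_mk.1 h₁
      have c2 := mem_fixedBy_mk.1 h₂
      have hxel : PEl r (g₁ * x * g₁⁻¹) := (pel_of_prime_order hx).conj g₁
      have hco := PEl.coprime' hp hr hpr hw hxel
      have hC := C_mul c1 hco
      have hd : cl w ∣ cl (w * (g₁ * x * g₁⁻¹)) := cl_dvd_of_le (hC ▸ inf_le_left)
      rw [e] at hd
      have heq : cl (w * (g₁ * x * g₁⁻¹)) = b := by
        rcases h.sizes _ (mul_ne_one_of_coprime hco hw1) with e' | e' | e'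
        · exact absurd (e' ▸ hd) h.nba
        · exact e'
        · exact absurd (e' ▸ hd) h.nbc
      have h1 : C (w * (g₁ * x * g₁⁻¹)) = C w :=
        eq_of_le_of_cl_eq (hC ▸ inf_le_left) (by rw [e, heq])
      have hle : C w ≤ C (g₁ * x * g₁⁻¹) := h1 ▸ hC ▸ inf_le_right
      have hxx := hiso _ _ (mem_C.1 (hle (mem_C.2 c2.symm.eq)) :
        Commute (g₂ * x * g₂⁻¹) (g₁ * x * g₁⁻¹))
      refine QuotientGroup.eq.2 (mem_C.2 ?_)
      calc g₁⁻¹ * g₂ * x = g₁⁻¹ * (g₂ * x * g₂⁻¹) * g₂ := by group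
        _ = g₁⁻¹ * (g₁ * x * g₁⁻¹) * g₂ := by rw [hxx]
        _ = x * (g₁⁻¹ * g₂) := by group
    · exact absurd e (h.cl_ne_c hw hw1 hpa)
  rcases hdich with h2 | ⟨χ, hχ, hdeg, hvan⟩
  · exact h.not_two_transitive hab hr hx hxa hCx hT hfix hone h2
  -- the normaliser of the torus contains a Sylow 2-subgroup
  set N := normalizer (K : Set G)
  set e := K.relIndex N with he
  obtain ⟨S₀⟩ : Nonempty (Sylow 2 G) := inferInstance
  haveI : Fintype (S₀ : Subgroup G) := Fintype.ofFinite _
  have hS0 : ∀ v : (S₀ : Subgroup G), v ≠ 1 → χ (v : G) = 0 := by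
    intro v hv
    obtain ⟨k, hk⟩ := IsPGroup.iff_orderOf.1 S₀.isPGroup' v
    have hv1 : (v : G) ≠ 1 := fun e => hv (Subtype.ext e)
    have hvel : PEl 2 (v : G) := ⟨k, by rw [← hk, ← orderOf_coe]; exact pow_orderOf_eq_one _⟩
    refine hvan _ (hone Nat.prime_two (Ne.symm hr2) hvel hv1 h2a) fun g hg => ?_
    have hd : orderOf (v : G) ∣ a := by
      have := orderOf_dvd_natCard (⟨_, hg⟩ : K)
      rwa [orderOf_mk, hka, show g⁻¹ * (v : G) * g = MulAut.conj g⁻¹ (v : G) by simp,
        MulEquiv.orderOf_eq] at this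
    rcases Nat.eq_zero_or_pos k with h1 | h1
    · rw [h1, pow_zero, orderOf_eq_one_iff] at hk; exact hv hk
    · rw [orderOf_coe, hk] at hd
      exact h2a ((dvd_pow_self 2 h1.ne').trans hd)
  obtain ⟨n, hn⟩ := CfsgLib.CharTheory.IsCharacter.exists_classInner_eq_nat
    (CfsgLib.Coherence.isCharacter_comp (CfsgLib.CharTheory.IsIrrCharacter.isCharacter hχ)
      (S₀ : Subgroup G).subtype) (CfsgLib.CharTheory.trivIrr (S₀ : Subgroup G))
  have hTe : Nat.card (S₀ : Subgroup G) ∣ e := by
    refine ⟨n, ?_⟩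
    rw [Cfsg.classInner, Finset.sum_eq_single 1
      (fun v _ hv => by rw [show χ ((S₀ : Subgroup G).subtype v) = 0 from hS0 v hv, zero_mul])
      (fun hh => absurd (Finset.mem_univ _) hh), map_one,
      CfsgLib.CharTheory.trivIrr_apply, map_one, mul_one, hdeg] at hn
    have hne : (Nat.card (S₀ : Subgroup G) : ℂ) ≠ 0 := Nat.cast_ne_zero.2 Nat.card_pos.ne'
    rw [inv_mul_eq_iff_eq_mul₀ hne] at hn
    exact_mod_cast hn
  have hTN : Nat.card (S₀ : Subgroup G) ∣ Nat.card N := hTe.trans (he ▸ relIndex_dvd_card K N)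
  have hsyl : ∃ P : Sylow 2 G, (P : Subgroup G) ≤ N := by
    obtain ⟨D, hD⟩ := exists_sylowIn (p := 2) N
    refine ⟨Sylow.ofCard D ?_, hD.le⟩
    refine le_antisymm ?_ ?_
    · have := card_le_of_isPGroup (H := (⊤ : Subgroup G)) hD.isPGroup le_top
      rwa [card_top] at this
    · rw [hD.card, ← S₀.card_eq_multiplicity]
      obtain ⟨l, hl⟩ := S₀.isPGroup'.exists_card_eq
      rw [hl] at hTN ⊢
      exact Nat.pow_le_pow_right (by norm_num)
        ((Nat.Prime.pow_dvd_iff_le_factorization Nat.prime_two Nat.card_pos.ne').1 hTN)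
  obtain ⟨P, hPN⟩ := hsyl
  have hinvert : ∀ u ∈ (P : Subgroup G), orderOf u = 2 → ∀ v ∈ K, u * v * u⁻¹ = v⁻¹ := by
    intro u hu hu2 v hv
    have hu1 := ne_one_of_prime_order Nat.prime_two hu2
    have huinv : u⁻¹ = u := inv_eq_of_mul_eq_one_right (by
      have := pow_orderOf_eq_one u; rwa [hu2, sq] at this)
    have huv : u * v * u⁻¹ ∈ K := (mem_normalizer_iff.1 (hPN hu) v).1 hv
    by_contra hne
    have hw : v * (u * v * u⁻¹) ∈ K := mul_mem hv huv
    have hw1 : v * (u * v * u⁻¹) ≠ 1 := fun e1 => hne (eq_inv_of_mul_eq_one_right e1)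
    have hfx : u ∈ C (v * (u * v * u⁻¹)) := by
      rw [mem_C]
      calc u * (v * (u * v * u⁻¹)) = (u * v * u⁻¹) * (u * (u * v * u⁻¹) * u⁻¹) * u := by group
        _ = (u * v * u⁻¹) * v * u := by
            congr 2
            calc u * (u * v * u⁻¹) * u⁻¹ = (u * u) * v * (u * u)⁻¹ := by group
              _ = v := by rw [show u * u = 1 by nth_rewrite 1 [← huinv]; exact inv_mul_cancel u]; group
        _ = v * (u * v * u⁻¹) * u := by rw [hKab _ huv _ hv]
    rw [hKcent _ hw hw1] at hfx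
    have := orderOf_dvd_natCard (⟨u, hfx⟩ : K)
    rw [orderOf_mk, hu2, hka] at this
    exact h2a this
  obtain ⟨u, huP, hu⟩ := CfsgLib.Involutions.exists_involution_mem_sylow P
    (even_iff_two_dvd.2 (ht ▸ orderOf_dvd_natCard t))
  refine false_of_unique_involution hZ P hu huP fun g hg => ?_
  by_contra hne
  set u' := g * u * g⁻¹ with hu'
  have hu'2 : orderOf u' = 2 :=
    (show orderOf (MulAut.conj g u) = 2 by rw [MulEquiv.orderOf_eq]; exact hu)
  have hq : u⁻¹ * u' ∈ C y := by
    have hy' := self_mem_C y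
    rw [mem_C]
    calc u⁻¹ * u' * y = u⁻¹ * (u' * y * u'⁻¹) * u' := by group
      _ = u⁻¹ * (u * y * u⁻¹) * u' := by rw [hinvert u' hg hu'2 y hy', hinvert u huP hu y hy']
      _ = y * (u⁻¹ * u') := by group
  have h1 : orderOf (u⁻¹ * u') ∣ a := by
    have := orderOf_dvd_natCard (⟨_, hq⟩ : C y)
    rwa [orderOf_mk, hka] at this
  obtain ⟨k, hk⟩ := IsPGroup.iff_orderOf.1 P.isPGroup' ⟨_, mul_mem (inv_mem huP) hg⟩
  rw [orderOf_mk] at hk
  rcases Nat.eq_zero_or_pos k with h2 | h2
  · rw [h2, pow_zero, orderOf_eq_one_iff, inv_mul_eq_one] at hk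
    exact hne hk.symm
  · rw [hk] at h1
    exact h2a ((dvd_pow_self 2 h2.ne').trans h1)

end CfsgLib.CoreFree.RankThree
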