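import Cfsg.Agent.Lib.ClassSizes3.Basic
import Cfsg.Agent.Lib.Involutions.BrauerSuzuki

/-!
# Simple groups whose class sizes are pairwise incomparable under divisibility

Involution centralisers of such groups are abelian.
-/

set_option autoImplicit false
set_option linter.style.haveILetI false

namespace CfsgLib.CoreFree.RankThree

open Subgroup CfsgLib.ClassSizes3

variable {G : Type*} [Group G] [Finite G]

/-- An element is a product of commuting powers of `2`-power and of odd order. -/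
theorem exists_two_odd_split (a : G) : ∃ i j : ℕ, (a ^ i) * (a ^ j) = a ∧
    (∃ k, orderOf (a ^ i) ∣ 2 ^ k) ∧ Odd (orderOf (a ^ j)) := by
  obtain ⟨k, m, hm, hn⟩ := Nat.exists_eq_two_pow_mul_odd (orderOf_pos a).ne'
  have hco : Nat.Coprime m (2 ^ k) := (Nat.coprime_two_right.2 hm).pow_right k
  let u := Nat.chineseRemainder hco 0 1
  let v := Nat.chineseRemainder hco 1 0
  refine ⟨u, v, ?_, ⟨k, ?_⟩, ?_⟩
  · rw [← pow_add]
    conv_rhs => rw [← pow_one a]
    rw [pow_eq_pow_iff_modEq, hn, mul_comm, ← Nat.modEq_and_modEq_iff_modEq_mul hco]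
    exact ⟨by simpa using u.2.1.add v.2.1, by simpa using u.2.2.add v.2.2⟩
  · refine orderOf_dvd_of_pow_eq_one ?_
    rw [← pow_mul, ← orderOf_dvd_iff_pow_eq_one, hn, mul_comm]
    exact Nat.mul_dvd_mul_right (Nat.modEq_zero_iff_dvd.1 u.2.1) _
  · refine hm.of_dvd_nat (orderOf_dvd_of_pow_eq_one ?_)
    rw [← pow_mul, ← orderOf_dvd_iff_pow_eq_one, hn]
    exact Nat.mul_dvd_mul_right (Nat.modEq_zero_iff_dvd.1 v.2.2) _

variable [IsSimpleGroup G]

theorem center_eq_bot_of_ne (hG : ¬ ∀ a b : G, a * b = b * a) : center G = ⊥ :=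
  ((inferInstance : (center G).Normal).eq_bot_or_eq_top).resolve_right fun h => hG fun a b =>
    ((mem_center_iff).1 (h.symm ▸ mem_top b) a)

/-- Pairwise incomparable class sizes force abelian involution centralisers. -/
theorem centralizer_comm_of_incomparable
    (hinc : ∀ x y : G, x ≠ 1 → y ≠ 1 → cl x ∣ cl y → cl x = cl y) (t : G) (ht : orderOf t = 2) :
    ∀ a ∈ C t, ∀ b ∈ C t, a * b = b * a := by
  classical
  haveI h2f : Fact (Nat.Prime 2) := ⟨Nat.prime_two⟩
  have hle : ∀ {x y : G}, x ≠ 1 → y ≠ 1 → C x ≤ C y → C x = C y := fun {x y} hx hy h =>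
    eq_of_le_of_cl_eq h (hinc y x hy hx (cl_dvd_of_le h))
  -- an element of 2-power order and one of odd order, commuting
  have hkey : ∀ w v : G, w ≠ 1 → v ≠ 1 → (∃ k, orderOf w ∣ 2 ^ k) → Odd (orderOf v) →
      Commute w v → C w = C v := by
    intro w v hw hv hk hodd hc
    obtain ⟨k, hk⟩ := hk
    have hco : (orderOf w).Coprime (orderOf v) :=
      Nat.Coprime.coprime_dvd_left hk ((Nat.coprime_two_left.2 hodd).pow_left k)
    have h1 : w * v ≠ 1 := by
      intro h
      rw [mul_eq_one_iff_eq_inv] at h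
      rw [h, orderOf_inv, Nat.coprime_self] at hco
      exact hv (orderOf_eq_one_iff.1 hco)
    have e := C_mul hc hco
    have e1 := hle h1 hw (e ▸ inf_le_left)
    have e2 := hle h1 hv (e ▸ inf_le_right)
    rw [← e1, e2]
  have hne1 : ∀ {u : G}, orderOf u = 2 → u ≠ 1 := fun h => CfsgLib.Involutions.ne_one h
  -- a centraliser is abelian or has no elements of odd order
  have hdich : ∀ u : G, orderOf u = 2 → (∀ a ∈ C u, ∀ b ∈ C u, a * b = b * a) ∨ IsPGroup 2 (C u) := by
    intro u hu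
    by_cases hv : ∃ v ∈ C u, v ≠ 1 ∧ Odd (orderOf v)
    · left
      obtain ⟨v₀, hv₀, hv1, hvo⟩ := hv
      have hodd : ∀ v ∈ C u, v ≠ 1 → Odd (orderOf v) → C v = C u := fun v hv hne ho =>
        (hkey u v (hne1 hu) hne ⟨1, by rw [hu, pow_one]⟩ ho (C_comm hv |> mem_C.1 : _)).symm
      intro a ha b hb
      obtain ⟨i, j, hij, hi, hj⟩ := exists_two_odd_split a
      have hmem : ∀ n : ℕ, a ^ n ∈ C u := fun n => pow_mem ha n
      have h1 : a ^ i ≠ 1 → C (a ^ i) = C u := fun hne => by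
        rw [← hodd v₀ hv₀ hv1 hvo]
        refine hkey _ _ hne hv1 hi hvo ?_
        have := hmem i
        rw [← hodd v₀ hv₀ hv1 hvo, mem_C] at this
        exact this
      have hcomm : ∀ n : ℕ, (a ^ n ≠ 1 → C (a ^ n) = C u) → a ^ n * b = b * a ^ n := by
        intro n h
        by_cases hn : a ^ n = 1
        · rw [hn, one_mul, mul_one]
        · exact (mem_C.1 ((h hn).symm ▸ hb)).symm
      have e1 := hcomm i h1
      have e2 := hcomm j fun hne => hodd _ (hmem j) hne hj
      rw [← hij, mul_assoc, e2, ← mul_assoc, e1, mul_assoc]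
    · right
      push Not at hv
      refine IsPGroup.iff_orderOf.2 fun a => ?_
      obtain ⟨i, j, hij, ⟨k, hk⟩, hj⟩ := exists_two_odd_split (a : G)
      have hj1 : (a : G) ^ j = 1 := by
        by_contra hne
        exact hv _ (pow_mem a.2 j) hne hj
      rw [hj1, mul_one] at hij
      rw [hij, orderOf_coe] at hk
      obtain ⟨l, -, hl⟩ := (Nat.dvd_prime_pow Nat.prime_two).1 hk
      exact ⟨l, hl⟩
  obtain ⟨P, hP⟩ : ∃ P : Sylow 2 G, t ∈ (P : Subgroup G) := by
    obtain ⟨P, hP⟩ := (IsPGroup.of_card (n := 1) (G := zpowers t)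
      (by rw [Nat.card_zpowers, ht, pow_one])).exists_le_sylow
    exact ⟨P, hP (mem_zpowers t)⟩
  suffices habel : ∀ a ∈ (P : Subgroup G), ∀ b ∈ (P : Subgroup G), a * b = b * a by
    rcases hdich t ht with h | h
    · exact h
    · have hPle : (P : Subgroup G) ≤ C t := fun a ha => mem_C.2 (habel a ha t hP)
      rw [P.is_maximal' h hPle]
      exact habel
  by_contra hPna
  -- centralisers of central involutions of non-abelian Sylow subgroups are 2-groups
  have hQna : ∀ Q : Sylow 2 G, ¬ ∀ a ∈ (Q : Subgroup G), ∀ b ∈ (Q : Subgroup G), a * b = b * a := by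
    intro Q hQ
    obtain ⟨g, rfl⟩ := MulAction.exists_smul_eq G P Q
    refine hPna fun a ha b hb => ?_
    have hm : ∀ c, c ∈ (P : Subgroup G) → g * c * g⁻¹ ∈ ((g • P : Sylow 2 G) : Subgroup G) := by
      intro c hc
      rw [Sylow.coe_subgroup_smul]
      exact smul_mem_pointwise_smul c (MulAut.conj g) _ hc
    have := hQ _ (hm a ha) _ (hm b hb)
    calc a * b = g⁻¹ * ((g * a * g⁻¹) * (g * b * g⁻¹)) * g := by group
      _ = g⁻¹ * ((g * b * g⁻¹) * (g * a * g⁻¹)) * g := by rw [this]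
      _ = b * a := by group
  have hcenQ : ∀ (Q : Sylow 2 G) (z : G), z ≠ 1 → z ∈ (Q : Subgroup G) →
      (∀ q ∈ (Q : Subgroup G), q * z = z * q) → ∀ v ∈ C z, Odd (orderOf v) → v = 1 := by
    intro Q z hz hzQ hzc v hv hvo
    by_contra hv1
    obtain ⟨k, hk⟩ := IsPGroup.iff_orderOf.1 Q.isPGroup' ⟨z, hzQ⟩
    rw [orderOf_mk] at hk
    have e := hkey z v hz hv1 ⟨k, hk.dvd⟩ hvo (mem_C.1 hv).symm
    -- every element of the centraliser commutes with `Q`
    have hall : ∀ q ∈ (Q : Subgroup G), q ≠ 1 → C q = C v := by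
      intro q hq hq1
      obtain ⟨l, hl⟩ := IsPGroup.iff_orderOf.1 Q.isPGroup' ⟨q, hq⟩
      rw [orderOf_mk] at hl
      refine hkey q v hq1 hv1 ⟨l, hl.dvd⟩ hvo ?_
      have : q ∈ C v := e ▸ mem_C.2 (hzc q hq)
      exact mem_C.1 this
    refine hQna Q fun a ha b hb => ?_
    by_cases ha1 : a = 1
    · simp [ha1]
    · have : b ∈ C a := (hall a ha ha1).symm ▸ e ▸ mem_C.2 (hzc b hb)
      exact (mem_C.1 this).symm
  -- every nontrivial element of 2-power order is central in some Sylow subgroup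
  have hsyl : ∀ w : G, w ≠ 1 → (∃ k, orderOf w = 2 ^ k) →
      ∃ Q : Sylow 2 G, (Q : Subgroup G) = C w := by
    intro w hw hk
    obtain ⟨k, hk⟩ := hk
    obtain ⟨Q, hQ⟩ := (IsPGroup.of_card (n := k) (G := zpowers w)
      (by rw [Nat.card_zpowers, hk])).exists_le_sylow
    haveI : Nontrivial (Q : Subgroup G) := ⟨⟨⟨w, hQ (mem_zpowers w)⟩, 1,
      fun h => hw (congrArg Subtype.val h)⟩⟩
    haveI := Q.isPGroup'.center_nontrivial
    obtain ⟨⟨⟨z, hzQ⟩, hzc⟩, hz1⟩ := exists_ne (1 : center (Q : Subgroup G))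
    have hz : z ≠ 1 := fun h => hz1 (Subtype.ext (Subtype.ext h))
    have hzc' : ∀ q ∈ (Q : Subgroup G), q * z = z * q := fun q hq =>
      congrArg Subtype.val (mem_center_iff.1 hzc ⟨q, hq⟩)
    have hnoodd : ∀ v ∈ C w, Odd (orderOf v) → v = 1 := by
      intro v hv hvo
      by_contra hv1
      have e := hkey w v hw hv1 ⟨k, hk.dvd⟩ hvo (mem_C.1 hv).symm
      refine hv1 (hcenQ Q z hz hzQ hzc' v ?_ hvo)
      have : z ∈ C v := e ▸ mem_C.2 (hzc' w (hQ (mem_zpowers w))).symm
      exact C_comm this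
    have hp : IsPGroup 2 (C w) := by
      refine IsPGroup.iff_orderOf.2 fun a => ?_
      obtain ⟨i, j, hij, ⟨l, hl⟩, hj⟩ := exists_two_odd_split (a : G)
      rw [hnoodd _ (pow_mem a.2 j) hj, mul_one] at hij
      rw [hij, orderOf_coe] at hl
      obtain ⟨m, -, hm⟩ := (Nat.dvd_prime_pow Nat.prime_two).1 hl
      exact ⟨m, hm⟩
    obtain ⟨R, hR⟩ := hp.exists_le_sylow
    refine ⟨R, (eq_of_le_of_card_ge hR ?_).symm⟩
    -- compare with the centraliser of a central involution
    have hpz : IsPGroup 2 (C z) := by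
      refine IsPGroup.iff_orderOf.2 fun a => ?_
      obtain ⟨i, j, hij, ⟨l, hl⟩, hj⟩ := exists_two_odd_split (a : G)
      rw [hcenQ Q z hz hzQ hzc' _ (pow_mem a.2 j) hj, mul_one] at hij
      rw [hij, orderOf_coe] at hl
      obtain ⟨m, -, hm⟩ := (Nat.dvd_prime_pow Nat.prime_two).1 hl
      exact ⟨m, hm⟩
    have hQz : (Q : Subgroup G) = C z :=
      (Q.is_maximal' hpz fun q hq => mem_C.2 (hzc' q hq)).symm
    have hd : cl z ∣ cl w := by
      have hdc : Nat.card (C w) ∣ Nat.card (C z) := by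
        rw [← hQz, Q.card_eq_multiplicity, ← R.card_eq_multiplicity]
        exact card_dvd_of_le hR
      have h1 := card_C_mul_cl w
      have h2 := card_C_mul_cl z
      obtain ⟨d, hd⟩ := hdc
      rw [hd, ← h1, mul_assoc] at h2
      exact ⟨d, by rw [mul_comm]; exact (Nat.eq_of_mul_eq_mul_left Nat.card_pos h2).symm⟩
    have hcz := hinc z w hz hw hd
    have h1 := card_C_mul_cl w
    have h2 := card_C_mul_cl z
    rw [hcz] at h2
    have : Nat.card (C z) = Nat.card (C w) :=
      Nat.eq_of_mul_eq_mul_right (Nat.pos_of_ne_zero (FiniteIndex.index_ne_zero)) (h2.trans h1.symm)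
    rw [← this, ← hQz, Q.card_eq_multiplicity, R.card_eq_multiplicity]
  -- the element whose square is central
  haveI : Nontrivial (P : Subgroup G) := ⟨⟨⟨t, hP⟩, 1, fun h => hne1 ht (congrArg Subtype.val h)⟩⟩
  set Z := center (P : Subgroup G) with hZ
  have hZtop : Z ≠ ⊤ := fun h => hPna fun a ha b hb =>
    congrArg Subtype.val (mem_center_iff.1 (h.symm ▸ mem_top (⟨b, hb⟩ : (P : Subgroup G))) ⟨a, ha⟩)
  haveI : Nontrivial ((P : Subgroup G) ⧸ Z) := by
    rw [← Finite.one_lt_card_iff_nontrivial, ← Subgroup.index_eq_card]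
    exact one_lt_index_of_ne_top hZtop
  obtain ⟨q, hq⟩ := exists_prime_orderOf_dvd_card' (G := (P : Subgroup G) ⧸ Z) 2 (by
    obtain ⟨m, hm⟩ := (P.isPGroup'.to_quotient Z).exists_card_eq
    rw [hm]
    refine dvd_pow_self 2 ?_
    rintro rfl
    rw [pow_zero] at hm
    exact (Finite.one_lt_card (α := (P : Subgroup G) ⧸ Z)).ne' hm)
  obtain ⟨u, rfl⟩ := QuotientGroup.mk_surjective q
  have huZ : u ∉ Z := fun h => by
    rw [(QuotientGroup.eq_one_iff u).2 h, orderOf_one] at hq; omega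
  have hu2 : u ^ 2 ∈ Z := by
    rw [← QuotientGroup.eq_one_iff, QuotientGroup.mk_pow]
    exact orderOf_dvd_iff_pow_eq_one.1 hq.dvd
  have hcenP : ∀ z ∈ Z, ∀ p ∈ (P : Subgroup G), p * (z : G) = (z : G) * p := fun z hz p hp =>
    congrArg Subtype.val (mem_center_iff.1 hz ⟨p, hp⟩)
  have hPpow : ∀ p : (P : Subgroup G), ∃ k, orderOf (p : G) = 2 ^ k := fun p => by
    obtain ⟨k, hk⟩ := IsPGroup.iff_orderOf.1 P.isPGroup' p
    exact ⟨k, by rw [orderOf_coe]; exact hk⟩
  have hCz : ∀ z : (P : Subgroup G), z ∈ Z → (z : G) ≠ 1 → (P : Subgroup G) = C (z : G) := by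
    intro z hz hz1
    obtain ⟨R, hR⟩ := hsyl _ hz1 (hPpow z)
    refine (P.is_maximal' ?_ fun p hp => mem_C.2 (hcenP z hz p hp)).symm
    rw [← hR]; exact R.isPGroup'
  have hinvol : ∀ v : (P : Subgroup G), v ∉ Z → v ^ 2 ∈ Z → v ^ 2 = 1 := by
    intro v hvZ hv2
    by_contra hne
    have hne' : ((v : G) ^ 2) ≠ 1 := fun h => hne (Subtype.ext (by simpa using h))
    have hv1 : (v : G) ≠ 1 := fun h => hne' (by rw [h, one_pow])
    have e := hCz _ hv2 (by simpa using hne')
    have hle' : C (v : G) ≤ C ((v : G) ^ 2) := fun x hx =>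
      mem_C.2 (Commute.pow_right (show Commute x (v : G) from mem_C.1 hx) 2)
    have heq := hle hv1 hne' hle'
    apply hvZ
    rw [hZ, mem_center_iff]
    intro p
    apply Subtype.ext
    have : (p : G) ∈ C (v : G) := by
      rw [heq, ← SubgroupClass.coe_pow, ← e]; exact p.2
    exact mem_C.1 this
  have hZ2 : ∀ z ∈ Z, z ^ 2 = 1 := by
    intro z hz
    have h1 := hinvol u huZ hu2
    have hc : Commute u z := mem_center_iff.1 hz u
    have h2 := hinvol (u * z) (fun h => huZ (by simpa using mul_mem h (inv_mem hz)))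
      (by rw [hc.mul_pow]; exact mul_mem hu2 (pow_mem hz 2))
    rwa [hc.mul_pow, h1, one_mul] at h2
  -- all elements of 2-power order are conjugate into the centre
  have hexp : ∀ w : (P : Subgroup G), (w : G) * w = 1 := by
    intro w
    by_cases hw : (w : G) = 1
    · simp [hw]
    obtain ⟨R, hR⟩ := hsyl _ hw (hPpow w)
    obtain ⟨g, hg⟩ := MulAction.exists_smul_eq G R P
    have hgw : g * (w : G) * g⁻¹ ∈ (P : Subgroup G) := by
      have h : g * (w : G) * g⁻¹ ∈ ((g • R : Sylow 2 G) : Subgroup G) := by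
        rw [Sylow.coe_subgroup_smul]
        exact smul_mem_pointwise_smul _ (MulAut.conj g) _ (hR ▸ self_mem_C _)
      rwa [hg] at h
    have hgZ : (⟨_, hgw⟩ : (P : Subgroup G)) ∈ Z := by
      rw [hZ, mem_center_iff]
      intro p
      apply Subtype.ext
      show (p : G) * (g * w * g⁻¹) = g * w * g⁻¹ * p
      have hp : (p : G) ∈ ((g • R : Sylow 2 G) : Subgroup G) := hg.symm ▸ p.2
      rw [Sylow.coe_subgroup_smul, mem_pointwise_smul_iff_inv_smul_mem, ← map_inv, MulAut.smul_def,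
        MulAut.conj_apply, inv_inv, hR] at hp
      calc (p : G) * (g * w * g⁻¹) = g * ((g⁻¹ * p * g) * w) * g⁻¹ := by group
        _ = g * (w * (g⁻¹ * p * g)) * g⁻¹ := by rw [mem_C.1 hp]
        _ = g * w * g⁻¹ * p := by group
    have := congrArg Subtype.val (hZ2 _ hgZ)
    rw [sq] at this
    change g * w * g⁻¹ * (g * w * g⁻¹) = 1 at this
    calc (w : G) * w = g⁻¹ * (g * w * g⁻¹ * (g * w * g⁻¹)) * g := by group
      _ = 1 := by rw [this]; group
  refine hPna fun a ha b hb => ?_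
  have hab := inv_eq_of_mul_eq_one_right (hexp ⟨a * b, mul_mem ha hb⟩)
  have e1 := inv_eq_of_mul_eq_one_right (hexp ⟨a, ha⟩)
  have e2 := inv_eq_of_mul_eq_one_right (hexp ⟨b, hb⟩)
  simp only at hab e1 e2
  conv_rhs => rw [← e1, ← e2, ← mul_inv_rev, hab]

end CfsgLib.CoreFree.RankThree
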