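import Cfsg.Agent.Lib.ClassSizes3.Basic
import Cfsg.Agent.Lib.CharTheory.Burnside

/-!
# Simple groups with three class sizes, two of them comparable

If `a ∣ b` and `c` is the third size then `|G| = a * c` and the centralisers of the elements of
class size `c` are abelian Hall subgroups which are centralisers of all their non-identity elements.
-/

set_option autoImplicit false
set_option linter.style.haveILetI false

namespace CfsgLib.CoreFree.RankThree

open Subgroup CfsgLib.ClassSizes3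

variable {G : Type*} [Group G] [Finite G]

/-- The symmetric part of the arithmetic data. -/
structure Pair (G : Type*) [Group G] (a b c : ℕ) : Prop where
  center_bot : center G = ⊥
  notComm : ¬ ∀ u v : G, u * v = v * u
  sizes : ∀ x : G, x ≠ 1 → cl x = a ∨ cl x = b ∨ cl x = c
  exA : ∃ x : G, x ≠ 1 ∧ cl x = a
  exC : ∃ x : G, x ≠ 1 ∧ cl x = c
  nba : ¬ b ∣ a
  nbc : ¬ b ∣ c
  nac : ¬ a ∣ c
  nca : ¬ c ∣ a
  cop : ∀ p : ℕ, p.Prime → ¬ (p ∣ a ∧ p ∣ c)

variable {a b c : ℕ}

theorem Pair.symm (h : Pair G a b c) : Pair G c b a where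
  center_bot := h.center_bot
  notComm := h.notComm
  sizes x hx := by rcases h.sizes x hx with e | e | e <;> simp [e]
  exA := h.exC
  exC := h.exA
  nba := h.nbc
  nbc := h.nba
  nac := h.nca
  nca := h.nac
  cop p hp hd := h.cop p hp hd.symm

theorem PEl.orderOf_dvd {p : ℕ} {w : G} (hw : PEl p w) : ∃ k, orderOf w ∣ p ^ k :=
  hw.imp fun _ hk => orderOf_dvd_of_pow_eq_one hk

theorem PEl.coprime' {p q : ℕ} (hp : p.Prime) (hq : q.Prime) (hpq : p ≠ q) {w u : G}
    (hw : PEl p w) (hu : PEl q u) : (orderOf w).Coprime (orderOf u) := by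
  obtain ⟨k, hk⟩ := PEl.orderOf_dvd hw
  obtain ⟨l, hl⟩ := PEl.orderOf_dvd hu
  exact Nat.Coprime.coprime_dvd_left hk
    (Nat.Coprime.coprime_dvd_right hl (Nat.Coprime.pow k l ((Nat.coprime_primes hp hq).2 hpq)))

theorem mul_ne_one_of_coprime {w u : G} (hco : (orderOf w).Coprime (orderOf u)) (hw : w ≠ 1) :
    w * u ≠ 1 := by
  intro h
  rw [mul_eq_one_iff_eq_inv] at h
  rw [h, orderOf_inv, Nat.coprime_self] at hco
  exact hw (by rw [h, orderOf_eq_one_iff.1 hco, inv_one])

/-- A `p`-element commutes with some conjugate of any element whose class size is prime to `p`. -/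
theorem exists_conj_commute {p : ℕ} [Fact p.Prime] {w x : G} (hw : PEl p w) (hp : ¬ p ∣ cl x) :
    ∃ g : G, Commute w (g * x * g⁻¹) := by
  obtain ⟨D, hD⟩ := exists_sylowIn (p := p) (C x)
  obtain ⟨g, -, hg⟩ := (hD.full hp).conj_mem hw (mem_top w)
  refine ⟨g⁻¹, ?_⟩
  have h1 := conj_mem_conj (g := g⁻¹) (hD.le hg)
  rw [show g⁻¹ * (g * w * g⁻¹) * g⁻¹⁻¹ = w by group] at h1
  exact mem_C.1 h1

theorem Pair.exists_prime_order (h : Pair G a b c) :
    ∃ (r : ℕ) (x : G), r.Prime ∧ orderOf x = r ∧ cl x = a := by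
  obtain ⟨x, hx, hxa⟩ := h.exA
  obtain ⟨r, w, hr, hw, hle, hwc⟩ := exists_pel_noncentral (show x ∉ center G by
    rw [h.center_bot, mem_bot]; exact hx)
  haveI := Fact.mk hr
  have hw1 : w ≠ 1 := fun e => hwc (e ▸ one_mem _)
  obtain ⟨k, hk⟩ := PEl.orderOf_dvd hw
  obtain ⟨l, -, hl⟩ := (Nat.dvd_prime_pow hr).1 hk
  obtain ⟨j, rfl⟩ : ∃ j, l = j + 1 := ⟨l - 1, by
    rcases Nat.eq_zero_or_pos l with h0 | h0
    · rw [h0, pow_zero, orderOf_eq_one_iff] at hl; exact absurd hl hw1
    · omega⟩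
  have hu : orderOf (w ^ r ^ j) = r := by
    rw [orderOf_pow' w (pow_ne_zero _ hr.ne_zero), hl,
      Nat.gcd_eq_right (pow_dvd_pow r (Nat.le_succ j)), pow_succ, Nat.mul_div_cancel_left _
        (pow_pos hr.pos j)]
  refine ⟨r, w ^ r ^ j, hr, hu, ?_⟩
  have hu1 : w ^ r ^ j ≠ 1 := fun e => by
    rw [e, orderOf_one] at hu; exact hr.ne_one hu.symm
  have hd : cl (w ^ r ^ j) ∣ a := hxa ▸ cl_dvd_of_le (hle.trans fun g hg =>
    mem_C.2 (Commute.pow_right (show Commute g w from mem_C.1 hg) _))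
  rcases h.sizes _ hu1 with e | e | e
  · exact e
  · exact absurd (e ▸ hd) h.nba
  · exact absurd (e ▸ hd) h.nca

section Simple

variable [IsSimpleGroup G]

theorem commute_all_contra {y : G} (hy : y ≠ 1) (hZ : center G = ⊥) {x : G} (hx : x ≠ 1)
    (hall : ∀ g : G, Commute y (g * x * g⁻¹)) : False := by
  have hn : (normalClosure ({x} : Set G)) = ⊤ :=
    (normalClosure_normal.eq_bot_or_eq_top).resolve_left fun e => hx (by
      have := subset_normalClosure (s := ({x} : Set G)) rfl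
      rwa [e, SetLike.mem_coe, mem_bot] at this)
  have hle : normalClosure ({x} : Set G) ≤ C y := by
    refine closure_le _ |>.2 ?_
    intro z hz
    obtain ⟨_, rfl, hz'⟩ := Group.mem_conjugatesOfSet_iff.1 hz
    obtain ⟨g, rfl⟩ := isConj_iff.1 hz'
    exact mem_C.2 (hall g).symm.eq
  refine hy ?_
  have hy' : y ∈ center G := mem_center_iff.2 fun g =>
    mem_C.1 (hle (hn.symm ▸ mem_top g))
  rwa [hZ, mem_bot] at hy'

/-- Elements of class sizes `a` and `c` never commute. -/
theorem Pair.not_commute (h : Pair G a b c) {x y : G} (hx1 : x ≠ 1) (hy1 : y ≠ 1) (hx : cl x = a)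
    (hy : cl y = c) : ¬ Commute x y := by
  intro hxy
  have hco : (C x).index.Coprime (C y).index := by
    change (cl x).Coprime (cl y)
    rw [hx, hy]
    exact Nat.coprime_of_dvd fun p hp h1 h2 => h.cop p hp ⟨h1, h2⟩
  refine commute_all_contra hy1 h.center_bot hx1 fun g => ?_
  have htr : ∃ u ∈ C y, ∃ v ∈ C x, g = u * v := by
    have hrel : (C y).relIndex (C x) = (C y).index := by
      refine Nat.le_antisymm (relIndex_le_index_aux (C y) (C x)) ?_
      have h1 : (C y ⊓ C x).index = (C y).relIndex (C x) * (C x).index := by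
        rw [← inf_relIndex_right, relIndex_mul_index inf_le_right]
      have h2 : (C y).index ∣ (C y ⊓ C x).index := index_dvd_of_le inf_le_left
      rw [h1] at h2
      exact Nat.le_of_dvd (Nat.pos_of_ne_zero relIndex_ne_zero_aux)
        (hco.symm.dvd_of_dvd_mul_right h2)
    let f : (C x) ⧸ (C y).subgroupOf (C x) → G ⧸ C y :=
      Quotient.lift (fun v : C x => QuotientGroup.mk (v : G)) fun v v' hv => by
        have hv' : (v⁻¹ * v' : C x) ∈ (C y).subgroupOf (C x) := QuotientGroup.leftRel_apply.1 hv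
        exact QuotientGroup.eq.2 (by simpa [mem_subgroupOf] using hv')
    have hinj : Function.Injective f := by
      intro v v'
      induction v using QuotientGroup.induction_on with | H v =>
      induction v' using QuotientGroup.induction_on with | H v' =>
      intro e
      exact QuotientGroup.eq.2 (mem_subgroupOf.2 (by simpa using QuotientGroup.eq.1 e))
    have hbij : Function.Bijective f := (Nat.bijective_iff_injective_and_card f).2
      ⟨hinj, by rw [← index_eq_card, ← index_eq_card]; exact hrel⟩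
    obtain ⟨v, hv⟩ := hbij.2 (QuotientGroup.mk g⁻¹)
    induction v using QuotientGroup.induction_on with | H v =>
    have h3 : (v : G)⁻¹ * g⁻¹ ∈ C y := QuotientGroup.eq.1 hv
    refine ⟨((v : G)⁻¹ * g⁻¹)⁻¹, inv_mem h3, (v : G)⁻¹, inv_mem v.2, ?_⟩
    group
  obtain ⟨u, hu, v, hv, rfl⟩ := htr
  have hvx : v * x * v⁻¹ = x := by rw [mem_C.1 hv, mul_inv_cancel_right]
  have huy : u * y * u⁻¹ = y := by rw [mem_C.1 hu, mul_inv_cancel_right]
  rw [show u * v * x * (u * v)⁻¹ = u * (v * x * v⁻¹) * u⁻¹ by group, hvx]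
  have := (hxy.symm.map (MulAut.conj u).toMonoidHom)
  simp only [MulEquiv.coe_toMonoidHom, MulAut.conj_apply, huy] at this
  exact this
where
  relIndex_le_index_aux (A B : Subgroup G) : A.relIndex B ≤ A.index := by
    have := relIndex_le_of_le_right (H := A) (le_top : B ≤ ⊤) (by
      rw [relIndex_top_right]; exact index_ne_zero_of_finite)
    rwa [relIndex_top_right] at this
  relIndex_ne_zero_aux {A B : Subgroup G} : A.relIndex B ≠ 0 := index_ne_zero_of_finite

/-- A `p`-element with `p ∤ a` does not have class size `c`. -/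
theorem Pair.cl_ne_c (h : Pair G a b c) {p : ℕ} [Fact p.Prime] {w : G} (hw : PEl p w) (hw1 : w ≠ 1)
    (hpa : ¬ p ∣ a) : cl w ≠ c := by
  intro hc
  obtain ⟨x, hx1, hx⟩ := h.exA
  obtain ⟨g, hg⟩ := exists_conj_commute (x := x) hw (by rwa [hx])
  exact h.not_commute (x := g * x * g⁻¹) (fun e => hx1 (conj_eq_one_iff.1 e)) hw1
    (by rw [cl_conj, hx]) hc hg.symm

/-- A `p`-element with `p ∤ a` commutes with no element of class size `c`. -/
theorem Pair.not_commute_pel (h : Pair G a b c) {p s : ℕ} [hp : Fact p.Prime] (hs : s.Prime)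
    {w y : G} (hw : PEl p w) (hw1 : w ≠ 1) (hpa : ¬ p ∣ a) (hy : PEl s y) (hy1 : y ≠ 1)
    (hyc : cl y = c) : ¬ Commute w y := by
  intro hwy
  haveI := Fact.mk hs
  have hsa : s ∣ a := by
    by_contra hsa
    exact h.cl_ne_c hy hy1 hsa hyc
  have hps : p ≠ s := fun e => hpa (e ▸ hsa)
  rcases h.sizes w hw1 with e | e | e
  · exact h.not_commute hw1 hy1 e hyc hwy
  · -- the class size of the product is a multiple of `b` and of `c`
    have hco := PEl.coprime' hp.out hs hps hw hy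
    have hC := C_mul hwy hco
    have hd : cl w ∣ cl (w * y) := cl_dvd_of_le (hC ▸ inf_le_left)
    rw [e] at hd
    rcases h.sizes _ (mul_ne_one_of_coprime hco hw1) with e' | e' | e'
    · exact h.nba (e' ▸ hd)
    · have heq : C (w * y) = C w :=
        eq_of_le_of_cl_eq (hC ▸ inf_le_left) (by rw [e, e'])
      have hle : C w ≤ C y := heq ▸ hC ▸ inf_le_right
      obtain ⟨x, hx1, hx⟩ := h.exA
      obtain ⟨g, hg⟩ := exists_conj_commute (x := x) hw (by rwa [hx])
      exact h.not_commute (x := g * x * g⁻¹) (fun e => hx1 (conj_eq_one_iff.1 e)) hy1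
        (by rw [cl_conj, hx]) hyc (mem_C.1 (hle (mem_C.2 hg.symm.eq)))
    · exact h.nbc (e' ▸ hd)
  · exact h.cl_ne_c hw hw1 hpa e

/-- No prime-power elements from the two sides commute. -/
theorem Pair.separated (h : Pair G a b c) {p q : ℕ} [hp : Fact p.Prime] [hq : Fact q.Prime]
    {w u : G} (hw : PEl p w) (hw1 : w ≠ 1) (hpc : ¬ p ∣ c) (hu : PEl q u) (hu1 : u ≠ 1)
    (hqa : ¬ q ∣ a) (hpq : p ≠ q) : ¬ Commute w u := by
  intro hwu
  have hwa : cl w ≠ a := h.symm.cl_ne_c hw hw1 hpc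
  have huc : cl u ≠ c := h.cl_ne_c hu hu1 hqa
  rcases h.sizes w hw1 with e | e | e
  · exact hwa e
  · rcases h.sizes u hu1 with e' | e' | e'
    · exact h.symm.not_commute_pel hq.out hw hw1 hpc hu hu1 e' hwu
    · have hco := PEl.coprime' hp.out hq.out hpq hw hu
      have hC := C_mul hwu hco
      have hd : cl w ∣ cl (w * u) := cl_dvd_of_le (hC ▸ inf_le_left)
      rw [e] at hd
      rcases h.sizes _ (mul_ne_one_of_coprime hco hw1) with e'' | e'' | e''
      · exact h.nba (e'' ▸ hd)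
      · have h1 : C (w * u) = C w := eq_of_le_of_cl_eq (hC ▸ inf_le_left) (by rw [e, e''])
        have hle : C w ≤ C u := h1 ▸ hC ▸ inf_le_right
        obtain ⟨s, y, hs, hy, hyc⟩ := h.symm.exists_prime_order
        obtain ⟨g, hg⟩ := exists_conj_commute (x := y) hw (by rwa [hyc])
        have hy1 : y ≠ 1 := fun e => by rw [e, orderOf_one] at hy; exact hs.ne_one hy.symm
        have hys : PEl s (g * y * g⁻¹) :=
          PEl.conj ⟨1, by rw [pow_one, ← hy]; exact pow_orderOf_eq_one y⟩ g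
        refine h.not_commute_pel hs hu hu1 hqa hys (fun e => hy1 (conj_eq_one_iff.1 e))
          (by rw [cl_conj, hyc]) ?_
        exact (mem_C.1 (hle (mem_C.2 hg.symm.eq)) : Commute (g * y * g⁻¹) u).symm
      · exact h.nbc (e'' ▸ hd)
    · exact huc e'
  · exact h.not_commute_pel hp.out hu hu1 hqa hw hw1 e hwu.symm

/-- The centraliser of an element of class size `c` has order prime to `c`. -/
theorem Pair.coprime_card (h : Pair G a b c) {y : G} (hy1 : y ≠ 1) (hyc : cl y = c)
    {s : ℕ} (hs : s.Prime) (hy : PEl s y) : (Nat.card (C y)).Coprime c := by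
  refine Nat.coprime_of_dvd fun q hq h1 h2 => ?_
  haveI := Fact.mk hq
  obtain ⟨⟨u, hu⟩, huo⟩ := exists_prime_orderOf_dvd_card' q h1
  rw [orderOf_mk] at huo
  have hu1 : u ≠ 1 := fun e => by rw [e, orderOf_one] at huo; exact hq.ne_one huo.symm
  exact h.not_commute_pel hs ⟨1, by rw [pow_one, ← huo]; exact pow_orderOf_eq_one u⟩ hu1
    (fun ha => h.cop q hq ⟨ha, h2⟩) hy hy1 hyc (mem_C.1 hu)

/-- The order of the group is `a * c`. -/
theorem Pair.card_eq (h : Pair G a b c) : Nat.card G = a * c := by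
  obtain ⟨r, x, hr, hx, hxa⟩ := h.exists_prime_order
  obtain ⟨s, y, hs, hy, hyc⟩ := h.symm.exists_prime_order
  have hx1 : x ≠ 1 := fun e => by rw [e, orderOf_one] at hx; exact hr.ne_one hx.symm
  have hy1 : y ≠ 1 := fun e => by rw [e, orderOf_one] at hy; exact hs.ne_one hy.symm
  have hxp : PEl r x := ⟨1, by rw [pow_one, ← hx]; exact pow_orderOf_eq_one x⟩
  have hyp : PEl s y := ⟨1, by rw [pow_one, ← hy]; exact pow_orderOf_eq_one y⟩
  have h1 := card_C_mul_cl x
  have h2 := card_C_mul_cl y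
  rw [hxa] at h1
  rw [hyc] at h2
  have cx := h.symm.coprime_card hx1 hxa hr hxp
  have cy := h.coprime_card hy1 hyc hs hyp
  have hac : a.Coprime c := Nat.coprime_of_dvd fun p hp u v => h.cop p hp ⟨u, v⟩
  -- the two centralisers have coprime orders
  have hxy : (Nat.card (C x)).Coprime (Nat.card (C y)) := by
    refine Nat.coprime_of_dvd fun q hq u v => ?_
    haveI := Fact.mk hq
    obtain ⟨⟨w, hw⟩, hwo⟩ := exists_prime_orderOf_dvd_card' q u
    obtain ⟨⟨w', hw'⟩, hwo'⟩ := exists_prime_orderOf_dvd_card' q v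
    rw [orderOf_mk] at hwo hwo'
    have pel : ∀ {z : G}, orderOf z = q → PEl q z ∧ z ≠ 1 := fun {z} e =>
      ⟨⟨1, by rw [pow_one, ← e]; exact pow_orderOf_eq_one z⟩,
        fun e1 => by rw [e1, orderOf_one] at e; exact hq.ne_one e.symm⟩
    by_cases hqa : q ∣ a
    · exact h.symm.not_commute_pel hr (pel hwo).1 (pel hwo).2 (fun hc => h.cop q hq ⟨hqa, hc⟩)
        hxp hx1 hxa (mem_C.1 hw)
    · exact h.not_commute_pel hs (pel hwo').1 (pel hwo').2 hqa hyp hy1 hyc (mem_C.1 hw')
  have hcx : c ∣ Nat.card (C x) :=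
    hac.symm.dvd_of_dvd_mul_right (h1.symm ▸ h2 ▸ dvd_mul_left c _)
  have hxc : Nat.card (C x) ∣ c :=
    hxy.dvd_of_dvd_mul_left (h2.symm ▸ h1 ▸ dvd_mul_right _ a)
  rw [← h1, Nat.dvd_antisymm hxc hcx, mul_comm]

variable (hab : a ∣ b)

include hab in
/-- A nontrivial `p`-element, `p ∤ c`, has class size `c`. -/
theorem Pair.cl_eq_c (h : Pair G a b c) {p : ℕ} [hp : Fact p.Prime] {w : G} (hw : PEl p w)
    (hw1 : w ≠ 1) (hpc : ¬ p ∣ c) : cl w = c := by
  have hac : a.Coprime c := Nat.coprime_of_dvd fun p hp u v => h.cop p hp ⟨u, v⟩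
  have hco : c.Coprime (Nat.card (C w)) := by
    refine Nat.coprime_of_dvd fun q hq u v => ?_
    haveI := Fact.mk hq
    obtain ⟨⟨z, hz⟩, hzo⟩ := exists_prime_orderOf_dvd_card' q v
    rw [orderOf_mk] at hzo
    exact h.separated hw hw1 hpc ⟨1, by rw [pow_one, ← hzo]; exact pow_orderOf_eq_one z⟩
      (fun e => by rw [e, orderOf_one] at hzo; exact hq.ne_one hzo.symm)
      (fun ha => h.cop q hq ⟨ha, u⟩) (fun e => hpc (e ▸ u)) (mem_C.1 hz).symm
  have hm : Nat.card (C w) * cl w = a * c := by rw [← h.card_eq]; exact card_C_mul_cl w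
  have hcd : c ∣ cl w := hco.dvd_of_dvd_mul_left (hm ▸ dvd_mul_left c a)
  rcases h.sizes w hw1 with e | e | e
  · exact absurd (e ▸ hcd) h.nca
  · exfalso
    rw [e] at hcd hm
    obtain ⟨d, hd⟩ := hac.mul_dvd_of_dvd_of_dvd hab hcd
    have h0 : 0 < a * c := h.card_eq ▸ Nat.card_pos
    have h1 : Nat.card (C w) * d = 1 := by
      rw [hd] at hm
      exact Nat.eq_of_mul_eq_mul_left h0 (by rw [mul_one]; linarith)
    have := eq_bot_of_card_eq (C w) (Nat.eq_one_of_mul_eq_one_right h1)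
    exact hw1 (by have := self_mem_C w; rwa [‹C w = ⊥›, mem_bot] at this)
  · exact e

include hab in
/-- The torus: an abelian subgroup of order `a` containing the centraliser of each of its
non-identity elements. -/
theorem Pair.exists_torus (h : Pair G a b c) {p : ℕ} [hp : Fact p.Prime] {w : G} (hw : PEl p w)
    (hw1 : w ≠ 1) (hpc : ¬ p ∣ c) :
    Nat.card (C w) = a ∧ (∀ u ∈ C w, ∀ v ∈ C w, u * v = v * u) ∧
      ∀ v ∈ C w, v ≠ 1 → C v = C w := by
  have hac : a.Coprime c := Nat.coprime_of_dvd fun p hp u v => h.cop p hp ⟨u, v⟩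
  have h0 : 0 < a * c := h.card_eq ▸ Nat.card_pos
  have hc0 : 0 < c := Nat.pos_of_mul_pos_left h0
  have hcard : ∀ {q : ℕ} [Fact q.Prime] {u : G}, PEl q u → u ≠ 1 → ¬ q ∣ c →
      Nat.card (C u) = a := by
    intro q _ u hu hu1 hq
    have := card_C_mul_cl u
    rw [h.cl_eq_c hab hu hu1 hq, h.card_eq] at this
    exact Nat.eq_of_mul_eq_mul_right hc0 this
  have hka := hcard hw hw1 hpc
  have hside : ∀ {q : ℕ}, q.Prime → ∀ {u : G}, PEl q u → u ≠ 1 → u ∈ C w → ¬ q ∣ c := by
    intro q hq u hu hu1 huw hqc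
    obtain ⟨k, hk⟩ := PEl.orderOf_dvd hu
    obtain ⟨l, -, hl⟩ := (Nat.dvd_prime_pow hq).1 hk
    rcases Nat.eq_zero_or_pos l with h1 | h1
    · rw [h1, pow_zero, orderOf_eq_one_iff] at hl; exact hu1 hl
    have hd : orderOf u ∣ a := by
      have := orderOf_dvd_natCard (⟨u, huw⟩ : C w)
      rwa [orderOf_mk, hka] at this
    exact h.cop q hq ⟨((hl ▸ dvd_pow_self q h1.ne') : q ∣ orderOf u).trans hd, hqc⟩
  -- commuting elements of coprime prime-power orders have equal centralisers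
  have hpair : ∀ {q₁ q₂ : ℕ} [Fact q₁.Prime] [Fact q₂.Prime] {u v : G}, PEl q₁ u → u ≠ 1 →
      ¬ q₁ ∣ c → PEl q₂ v → v ≠ 1 → ¬ q₂ ∣ c → q₁ ≠ q₂ → Commute u v → C u = C v := by
    intro q₁ q₂ f1 f2 u v hu hu1 hu2 hv hv1 hv2 hne hc
    have hco := PEl.coprime' f1.out f2.out hne hu hv
    have hC := C_mul hc hco
    have hd : cl u ∣ cl (u * v) := cl_dvd_of_le (hC ▸ inf_le_left)
    rw [h.cl_eq_c hab hu hu1 hu2] at hd
    have hcl : cl (u * v) = c := by
      rcases h.sizes _ (mul_ne_one_of_coprime hco hu1) with e | e | e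
      · exact absurd (e ▸ hd) h.nca
      · exfalso
        rw [e] at hd
        obtain ⟨d, hd'⟩ := hac.mul_dvd_of_dvd_of_dvd hab hd
        have hm : Nat.card (C (u * v)) * b = a * c := by
          rw [← e, ← h.card_eq]; exact card_C_mul_cl _
        have h1 : Nat.card (C (u * v)) * d = 1 := by
          rw [hd'] at hm
          exact Nat.eq_of_mul_eq_mul_left h0 (by rw [mul_one]; linarith)
        have hb := eq_bot_of_card_eq (C (u * v)) (Nat.eq_one_of_mul_eq_one_right h1)
        exact mul_ne_one_of_coprime hco hu1 (by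
          have := self_mem_C (u * v); rwa [hb, mem_bot] at this)
      · exact e
    have e1 : C (u * v) = C u :=
      eq_of_le_of_cl_eq (hC ▸ inf_le_left) (by rw [hcl, h.cl_eq_c hab hu hu1 hu2])
    have e2 : C (u * v) = C v :=
      eq_of_le_of_cl_eq (hC ▸ inf_le_right) (by rw [hcl, h.cl_eq_c hab hv hv1 hv2])
    rw [← e1, e2]
  -- an element of order prime to `p`
  obtain ⟨q, z, hq, hz, hz1, hzw, hqp⟩ :
      ∃ (q : ℕ) (z : G), q.Prime ∧ PEl q z ∧ z ≠ 1 ∧ z ∈ C w ∧ q ≠ p := by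
    by_contra! hall
    obtain ⟨x, hx1, hxa⟩ := h.exA
    have hpg : IsPGroup p (C w) := by
      refine IsPGroup.of_card (n := a.primeFactorsList.length) ?_
      rw [hka]
      refine Nat.eq_prime_pow_of_unique_prime_dvd (p := p) (Nat.pos_of_mul_pos_right h0).ne'
        fun {q} hq hqa => ?_
      haveI := Fact.mk hq
      obtain ⟨⟨u, hu⟩, huo⟩ := exists_prime_orderOf_dvd_card' q (hka.symm ▸ hqa : q ∣ Nat.card (C w))
      rw [orderOf_mk] at huo
      exact hall q u hq ⟨1, by rw [pow_one, ← huo]; exact pow_orderOf_eq_one u⟩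
        (fun e => by rw [e, orderOf_one] at huo; exact hq.ne_one huo.symm) hu
    obtain ⟨k, hk⟩ := hpg.exists_card_eq
    have hprime := CfsgLib.CharTheory.prime_card_of_index_centralizer_pow p k hp.out x hx1
      (by rw [← hk, hka, ← hxa]; rfl)
    haveI := Fact.mk hprime
    haveI : IsCyclic G := isCyclic_of_prime_card rfl
    exact h.notComm (IsCyclic.commGroup (α := G)).mul_comm
  haveI := Fact.mk hq
  have hzc := hside hq hz hz1 hzw
  have hzeq : C z = C w := hpair hz hz1 hzc hw hw1 hpc hqp (mem_C.1 hzw)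
  have hcentral : ∀ {q' : ℕ}, q'.Prime → ∀ {u : G}, PEl q' u → u ≠ 1 → u ∈ C w → C u = C w := by
    intro q' hq' u hu hu1 huw
    haveI := Fact.mk hq'
    have huc := hside hq' hu hu1 huw
    by_cases e : q' = p
    · subst e
      rw [hpair hu hu1 huc hz hz1 hzc (Ne.symm hqp)
        (mem_C.1 (hzeq.symm ▸ huw : u ∈ C z)), hzeq]
    · exact hpair hu hu1 huc hw hw1 hpc e (mem_C.1 huw)
  have habel : ∀ u ∈ C w, ∀ v ∈ C w, u * v = v * u := by
    intro u hu
    by_contra hne
    have hun : u ∉ centralizer ((C w : Subgroup G) : Set G) := fun hm => hne fun v hv =>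
      (mem_centralizer_iff.1 hm v hv).symm
    obtain ⟨q', u', hq', hu', huz, hu'n⟩ := exists_pel_notMem _ hun
    have hu'w : u' ∈ C w := (zpowers_le.2 hu) huz
    have hu'1 : u' ≠ 1 := fun e => hu'n (e ▸ one_mem _)
    exact hu'n (mem_centralizer_iff.2 fun v hv => mem_C.1 ((hcentral hq' hu' hu'1 hu'w).symm ▸ hv))
  refine ⟨hka, habel, fun v hv hv1 => ?_⟩
  obtain ⟨q', v', hq', hv', hvz, hv'1⟩ := exists_pel_notMem (⊥ : Subgroup G) (by rwa [mem_bot])
  rw [mem_bot] at hv'1
  refine le_antisymm ?_ fun u hu => mem_C.2 (habel u hu v hv)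
  rw [← hcentral hq' hv' hv'1 ((zpowers_le.2 hv) hvz)]
  intro u hu
  obtain ⟨i, rfl⟩ := mem_zpowers_iff.1 hvz
  exact mem_C.2 (Commute.zpow_right (show Commute u v from mem_C.1 hu) i)

end Simple

end CfsgLib.CoreFree.RankThree
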